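import Cfsg.Agent.H10R.A
import Cfsg.Agent.H11.TwoGp

/-! `2`-groups mapping to `Sym 4` with a small centralizer in the kernel. -/

set_option autoImplicit false
set_option linter.style.haveILetI false

namespace Cfsg.Agent.FX

open Cfsg.Agent.H11

namespace PA

variable {G : Type*} [Group G] [Finite G]

theorem maxab (hG : IsPGroup 2 G) (T : Subgroup G) (hT : T.Normal) : ∃ A : Subgroup G,
    A.Normal ∧ A ≤ T ∧ (∀ a ∈ A, ∀ b ∈ A, a * b = b * a) ∧
      ∀ g ∈ T, g ∈ Subgroup.centralizer (A : Set G) → g ∈ A := by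
  obtain ⟨A, ⟨h1, h2, h3⟩, hmax⟩ := (wellFounded_gt (α := Subgroup G)).has_min
    {A : Subgroup G | A.Normal ∧ A ≤ T ∧ ∀ a ∈ A, ∀ b ∈ A, a * b = b * a}
    ⟨⊥, inferInstance, bot_le, by simp⟩
  refine ⟨A, h1, h2, h3, fun g hg hc => ?_⟩
  by_contra hgA
  obtain ⟨M, nM, m1, m2, m3, -⟩ := H10R.step hG h1
    (inferInstance : (T ⊓ Subgroup.centralizer (A : Set G)).Normal)
    (le_inf h2 fun a ha b hb => h3 b hb a ha) fun h => hgA (h ⟨hg, hc⟩)
  refine hmax M ⟨nM, m2.trans inf_le_left, fun a ha b hb => ?_⟩ (lt_of_le_of_ne m1 fun e => ?_)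
  · by_cases a1 : a ∈ A
    · exact (m2 hb).2 a a1
    by_cases b1 : b ∈ A
    · exact ((m2 ha).2 b b1).symm
    have := (m2 ha).2 _ (H10R.di m1 m3.le ha hb a1 b1)
    rw [mul_assoc] at this
    exact (mul_left_cancel this).symm
  · have := Nat.card_pos (α := A)
    rw [← e] at m3; omega

/-- a normal subgroup containing no normal four-subgroup has sectional rank at most two -/
theorem rel (hG : IsPGroup 2 G) (T : Subgroup G) (hT : T.Normal)
    (h : ∀ V ≤ T, V.Normal → ¬ IsKleinFour V) : SR 2 T := by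
  obtain ⟨A, hAn, hAT, hA, hC⟩ := maxab hG T hT
  have hcyc : IsCyclic A := by
    by_contra hc
    obtain ⟨V, h0, h1, h2⟩ := exists_normal_klein_le hG hA hc
    exact h V (h0.trans hAT) h1 h2
  obtain ⟨a, rfl⟩ := (Subgroup.isCyclic_iff_exists_zpowers_eq_top A).1 hcyc
  obtain ⟨n, hn⟩ := (IsPGroup.iff_orderOf.1 hG) a
  have ha1 : a ^ 2 ^ n = 1 := by rw [← hn, pow_orderOf_eq_one]
  let X : ZMod (2 ^ n) → G := fun k => a ^ k.val
  have hXX : ∀ i j, X i * X j = X (i + j) := fun i j => (pow_val_add ha1 i j).symm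
  have hinj : ∀ {i j}, X i = X j → i = j := fun h => pow_val_injective hn h
  have hX0 : X 0 = 1 := by simp [X]
  have hX1 : X 1 = a := by
    have := pow_val_natCast (n := 2 ^ n) ha1 1
    simpa using this
  have hmem : ∀ g, g ∈ Subgroup.zpowers a ↔ ∃ k, g = X k := by
    intro g
    constructor
    · rintro ⟨k, rfl⟩
      exact ⟨k, (pow_val_intCast ha1 k).symm⟩
    · rintro ⟨k, rfl⟩
      exact Subgroup.npow_mem_zpowers _ _
  have hmul : ∀ i j : ZMod (2 ^ n), X i ^ j.val = X (i * j) := fun i j => by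
    simp only [X]
    rw [ZMod.val_mul, ← pow_mul, ← pow_eq_pow_mod _ ha1]
  choose r hr using fun g : G => (hmem _).1 (hAn.conj_mem a (Subgroup.mem_zpowers a) g)
  have hrX : ∀ g k, g * X k * g⁻¹ = X (r g * k) := fun g k => by
    rw [← hmul, ← hr, conj_pow]
  have hrmul : ∀ g k, r (g * k) = r g * r k := fun g k => hinj (by
    rw [← hr, ← hrX, ← hr]; group)
  have hr0 : ∀ g ∈ Subgroup.zpowers a, r g = 1 := fun g h1 => by
    apply hinj
    rw [← hr, hX1, hA g h1 a (Subgroup.mem_zpowers a), mul_inv_cancel_right]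
  have hr1 : ∀ g ∈ T, r g = 1 ↔ g ∈ Subgroup.zpowers a := by
    intro g hgT
    constructor
    · intro h1
      apply hC g hgT
      have := hr g
      rw [h1, hX1, mul_inv_eq_iff_eq_mul] at this
      rintro _ ⟨k, rfl⟩
      exact ((Commute.zpow_right this k).eq).symm
    · exact hr0 g
  have hrinv : ∀ g, r g⁻¹ * r g = 1 := fun g => by
    rw [← hrmul, inv_mul_cancel]; exact hr0 1 (Subgroup.one_mem _)
  -- no element induces the modular automorphism
  have hM : 3 ≤ n → ∀ g ∈ T, r g ≠ 1 + hh n := by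
    intro h3 g hgT hg
    have h2h := two_hh (n := n) (by omega)
    have h2q := two_qq (n := n) (by omega)
    have h8 : 2 * fr n 3 = qq n := two_mul_fr h3
    have hgg : g * g ∈ Subgroup.zpowers a := (hr1 _ (T.mul_mem hgT hgT)).1 (by
      rw [hrmul, hg]; linear_combination (1 + qq n) * h2h - hh n * h2q)
    obtain ⟨s, hs⟩ := (hmem _).1 hgg
    have hs1 : hh n * s = 0 := by
      have : X (r g * s) = X s := by rw [← hrX, ← hs]; group
      have := hinj this
      rw [hg] at this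
      linear_combination this
    obtain ⟨s', hs' | hs'⟩ := zparity s
    swap
    · rw [hs'] at hs1
      exact hh_ne (n := n) (by omega) (by linear_combination hs1 - s' * h2h)
    obtain ⟨u, hu⟩ := zodd_unit (fr n 3)
    have hsq : ∀ i, (X i * g) * (X i * g) = X (i + (1 + hh n) * i + s) := fun i => by
      rw [← hXX, ← hXX, ← hg, ← hrX, ← hs]; group
    set b := X (-(u * s')) * g with hb
    have hbb : b * b = 1 := by
      rw [hb, hsq, ← hX0]; congr 1
      rw [hs']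
      linear_combination (-2 * s') * hu + (u * s') * h2q + (2 * u * s') * h8
    have hrb : r b = 1 + hh n := by
      rw [hb, hrmul, hr0 _ ((hmem _).2 ⟨_, rfl⟩), one_mul, hg]
    have hbA : b ∉ Subgroup.zpowers a := fun h => by
      have := hr0 b h
      rw [hrb] at this
      exact hh_ne (n := n) (by omega) (by linear_combination this)
    have hz : orderOf (X (hh n)) = 2 := orderOf_two_of
      (fun h => hh_ne (n := n) (by omega) (hinj (h.trans hX0.symm)))
      (by rw [hXX, ← hX0]; congr 1; linear_combination h2h)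
    have hzc : ∀ g, g * X (hh n) * g⁻¹ = X (hh n) := fun g =>
      invol_unique_zpowers (a := a) (by rw [orderOf_conj, hz]) hz
        (hAn.conj_mem _ ((hmem _).2 ⟨_, rfl⟩) g) ((hmem _).2 ⟨_, rfl⟩)
    have hbo : orderOf b = 2 := orderOf_two_of (fun h => hbA (h ▸ Subgroup.one_mem _)) hbb
    have hzb : X (hh n) * b = b * X (hh n) := (mul_inv_eq_iff_eq_mul.1 (hzc b)).symm
    have hV := isKleinFour_closure hz hbo (fun h => hbA (h ▸ (hmem _).2 ⟨_, rfl⟩)) hzb
    have hbT : b ∈ T := T.mul_mem (hAT ((hmem _).2 ⟨_, rfl⟩)) hgT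
    refine h _ ((Subgroup.closure_le _).2 (by
      rintro _ (rfl | rfl)
      exacts [hAT ((hmem _).2 ⟨_, rfl⟩), hbT])) ?_ hV
    rw [← Subgroup.normalizer_eq_top_iff, eq_top_iff]
    intro s _
    apply mem_normalizer_of_cj_le
    rw [cj_closure, Subgroup.closure_le]
    rintro _ ⟨x, rfl | rfl, rfl⟩
    · show s * _ * s⁻¹ ∈ _
      rw [hzc]; exact Subgroup.subset_closure (by simp)
    · show s * b * s⁻¹ ∈ _
      have h1 : s * b * s⁻¹ * b⁻¹ ∈ Subgroup.zpowers a := (hr1 _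
          (T.mul_mem (hT.conj_mem b hbT s) (T.inv_mem hbT))).1 (by
        rw [hrmul, hrmul, hrmul]
        linear_combination (r b⁻¹ * r b) * hrinv s + hrinv b)
      obtain ⟨i, hi⟩ := (hmem _).1 h1
      have h2 : s * b * s⁻¹ = X i * b := by rw [← hi]; group
      have h3 : X i * b * (X i * b) = 1 := by
        rw [← h2]
        calc _ = s * (b * b) * s⁻¹ := by group
          _ = 1 := by rw [hbb]; group
      have h4 : X (i + (1 + hh n) * i) = X 0 := by
        rw [← hXX, ← hrb, ← hrX, hX0, ← h3, inv_eq_of_mul_eq_one_right hbb]; group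
      have h5 : 2 * i = 0 := by
        have := hinj h4
        linear_combination u * this - 2 * i * hu + u * i * h2q + 2 * u * i * h8
      rw [SetLike.mem_coe, mem_four_iff (mul_self_of_orderOf_two hz) hbb hzb, h2]
      rcases two_mul_eq_zero (by omega) h5 with h6 | h6
      · rw [h6, hX0, one_mul]; tauto
      · rw [h6]; tauto
  have hE : ∀ g ∈ T, g * g ∈ Subgroup.zpowers a := by
    intro g hgT
    by_contra hg
    obtain ⟨k, hk1, hk2⟩ := H1.exists_pow_notMem_pow_succ_mem hG hg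
    set c := g ^ 2 ^ k with hc
    have e1 : (g * g) ^ 2 ^ k = c * c := by rw [hc, ← pow_two, ← pow_mul, ← pow_two, ← pow_mul, mul_comm]
    have e2 : (g * g) ^ 2 ^ (k + 1) = (c * c) * (c * c) := by rw [pow_succ, pow_mul, e1, pow_two]
    have hcT : c * c ∈ T := T.mul_mem (T.pow_mem hgT _) (T.pow_mem hgT _)
    rw [e1, ← hr1 _ hcT] at hk1
    rw [e2, ← hr1 _ (T.mul_mem hcT hcT), hrmul] at hk2
    rcases Nat.eq_zero_or_pos n with h0 | h0
    · subst h0; exact hk1 (Subsingleton.elim (α := ZMod 1) _ _)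
    obtain ⟨b, hb | hb⟩ := zparity (r c)
    · have := hrinv c
      rw [hb] at this
      exact zodd_ne h0 (r c⁻¹ * b) 0 (by linear_combination this)
    have hs : r (c * c) = 1 + 4 * (b * (b + 1)) := by rw [hrmul, hb]; ring
    have h3 : 3 ≤ n := by
      by_contra h3
      apply hk1
      have : (4 : ZMod (2 ^ n)) = 0 := by
        have h4 : ((4 : ℕ) : ZMod (2 ^ n)) = 0 := by
          rw [ZMod.natCast_eq_zero_iff]
          exact (pow_dvd_pow 2 (by omega : n ≤ 2))
        exact_mod_cast h4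
      rw [hs, this]; ring
    have h2q := two_qq (n := n) (by omega)
    have h8 : 2 * fr n 3 = qq n := two_mul_fr h3
    rcases zsq_eq_one h0 hk2 with h1 | h1 | h1 | h1
    · exact hk1 h1
    · exact two_mul_odd_ne (n := n) (by omega) (b * (b + 1)) (by rw [hs] at h1; linear_combination h1)
    · exact hM h3 _ hcT h1
    · exact two_mul_odd_ne (n := n) (by omega) (b * (b + 1) - fr n 3)
        (by rw [hs] at h1; linear_combination h1 - h2q - 2 * h8)
  refine (SR.zpowers a).ext (b := 1) ?_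
  by_cases htop : T ≤ Subgroup.zpowers a
  · rw [Subgroup.relIndex_eq_one.2 htop]; norm_num
  obtain ⟨b, hbT, hb⟩ := SetLike.not_le_iff_exists.1 htop
  have hn2 : 2 ≤ n := by
    by_contra hlt
    apply hb
    rw [← hr1 _ hbT]
    have := hrinv b
    have hn' : n = 0 ∨ n = 1 := by omega
    rcases hn' with rfl | rfl
    · exact Subsingleton.elim (α := ZMod 1) _ _
    · revert this
      generalize r b⁻¹ = u
      generalize r b = v
      revert u v
      decide
  have h2h := two_hh (n := n) (by omega)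
  have h2q := two_qq (n := n) hn2
  have hcases : ∀ g ∈ T, g ∉ Subgroup.zpowers a →
      ∃ e, (e = 0 ∨ (3 ≤ n ∧ e = hh n)) ∧ r g = -1 + e := by
    intro g hgT hg
    have h1 := hr0 _ (hE g hgT)
    rw [hrmul] at h1
    rcases (by omega : n = 2 ∨ 3 ≤ n) with h2 | h3
    · subst h2
      refine ⟨0, Or.inl rfl, ?_⟩
      rw [← hr1 _ hgT] at hg
      revert h1 hg
      generalize r g = u
      revert u
      decide
    · rcases zsq_eq_one (by omega) h1 with h2 | h2 | h2 | h2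
      · exact absurd ((hr1 g hgT).1 h2) hg
      · exact ⟨0, Or.inl rfl, by rw [h2, add_zero]⟩
      · exact absurd h2 (hM h3 g hgT)
      · exact ⟨hh n, Or.inr ⟨h3, rfl⟩, h2⟩
  obtain ⟨e, he, hre⟩ := hcases b hbT hb
  have hidx : (Subgroup.zpowers a).relIndex T = 2 := by
    refine relIndex_eq_two_of (a := b) hbT hb fun c hcT => ?_
    by_cases hc : c ∈ Subgroup.zpowers a
    · exact Or.inl hc
    right
    obtain ⟨e', he', hre'⟩ := hcases c hcT hc
    have hcb := T.mul_mem hcT hbT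
    rw [← hr1 _ hcb]
    by_contra hne
    have hm := hrmul c b
    rw [hre, hre'] at hm
    rcases he with rfl | ⟨h3, rfl⟩ <;> rcases he' with rfl | ⟨h3', rfl⟩
    · exact hne (by rw [hm]; ring)
    · exact hM h3' _ hcb (by rw [hm]; linear_combination (-1) * h2h)
    · exact hM h3 _ hcb (by rw [hm]; linear_combination (-1) * h2h)
    · exact hne (by rw [hm]; linear_combination (qq n - 1) * h2h - hh n * h2q)
  rw [hidx]; norm_num

omit [Finite G] in
theorem fx {e m : G} (he : e * e = 1) (h : e * m * e⁻¹ * m⁻¹ * (e * m * e⁻¹ * m⁻¹) = 1) :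
    e * m * e⁻¹ * m⁻¹ * e = e * (e * m * e⁻¹ * m⁻¹) := by
  have e1 : e⁻¹ = e := inv_eq_of_mul_eq_one_right he
  have e2 := inv_eq_of_mul_eq_one_right h
  conv_lhs => rw [← e2]
  rw [e1]
  calc (e * m * e * m⁻¹)⁻¹ * e = m * e⁻¹ * m⁻¹ := by group
    _ = (e * e) * m * e * m⁻¹ := by rw [he, e1, one_mul]
    _ = _ := by group

theorem sr_ext {Q : Type*} [Group Q] (f : G →* Q) {a b : ℕ} (h1 : SR a f.ker)
    (h2 : SR b f.range) : SR (a + b) (⊤ : Subgroup G) := by
  intro X _ N hN hsq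
  have e1 := H10.relIndex_sup_of_le_normalizer (N := N) (H := X ⊓ f.ker)
    (inf_le_left.trans (le_normalizer_of_sq hN hsq))
  have e2 : X ⊓ f.ker ⊔ N = (N.map f).comap f ⊓ X := by
    apply le_antisymm
    · refine sup_le (fun x hx => ⟨?_, hx.1⟩) (le_inf (Subgroup.le_comap_map _ _) hN)
      show f x ∈ N.map f
      rw [show f x = 1 from hx.2]; exact one_mem _
    · rintro x ⟨⟨n, hn, e⟩, hx⟩
      rw [← inv_mul_cancel_right x n]
      refine mul_mem (Subgroup.mem_sup_left ⟨X.mul_mem hx (X.inv_mem (hN hn)), ?_⟩)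
        (Subgroup.mem_sup_right hn)
      show f (x * n⁻¹) = 1
      rw [map_mul, map_inv, e, mul_inv_cancel]
  have e3 := Subgroup.relIndex_mul_relIndex N (X ⊓ f.ker ⊔ N) X le_sup_right
    (sup_le inf_le_left hN)
  have k1 := h1 (X ⊓ f.ker) inf_le_right (N ⊓ (X ⊓ f.ker)) inf_le_right
    fun x hx => ⟨hsq x hx.1, mul_mem hx hx⟩
  have k2 := h2 (X.map f) (Subgroup.map_le_range _ _) (N.map f) (Subgroup.map_mono hN) (by
    rintro _ ⟨x, hx, rfl⟩; exact ⟨x * x, hsq x hx, map_mul _ _ _⟩)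
  rw [Subgroup.inf_relIndex_right] at k1
  rw [← e3, e1, e2, Subgroup.inf_relIndex_right, Subgroup.relIndex_comap, pow_add]
  exact Nat.mul_le_mul k1 k2

theorem s4 : ∀ a b c : Equiv.Perm (Fin 4), a * a = 1 → b * b = 1 → a * b = b * a → c * c = 1 →
    a * c = c * a → b * c = c * b → a = 1 ∨ b = 1 ∨ b = a ∨ c = 1 ∨ c = a ∨ c = b ∨ c = a * b := by
  decide +kernel

theorem sr_s4 {Y : Subgroup (Equiv.Perm (Fin 4))} (hY : IsPGroup 2 Y) : SR 2 Y := by
  intro X hX N hN hsq
  have e := card_mul_relIndex hN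
  obtain ⟨k, hk⟩ := IsPGroup.iff_card.1 (hY.to_le hX)
  have hd := Subgroup.card_subgroup_dvd_card X
  rw [hk, Nat.card_perm, Nat.card_eq_fintype_card, Fintype.card_fin] at hd
  have k3 : k ≤ 3 := by
    by_contra h
    exact absurd ((pow_dvd_pow 2 (by omega : 4 ≤ k)).trans hd) (by decide)
  have h8 : Nat.card X ≤ 8 := hk ▸ (Nat.pow_le_pow_right (by norm_num) k3)
  by_cases h1 : Nat.card N = 1
  swap
  · have := Nat.card_pos (α := N)
    have h2 : 2 ≤ Nat.card N := by omega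
    have := Nat.mul_le_mul_right (N.relIndex X) h2
    omega
  rw [Subgroup.card_eq_one.1 h1] at hsq ⊢
  rw [Subgroup.relIndex_bot_left]
  have sq : ∀ x ∈ X, x * x = 1 := fun x hx => Subgroup.mem_bot.1 (hsq x hx)
  have key : ∀ a b : Equiv.Perm (Fin 4), (∀ c ∈ X, c = 1 ∨ c = a ∨ c = b ∨ c = a * b) →
      Nat.card X ≤ 2 ^ 2 := fun a b h => by
    have : (X : Set (Equiv.Perm (Fin 4))) ⊆ ({1, a, b, a * b} : Finset _) := fun c hc => by
      simpa using h c hc
    have h4 := Set.ncard_le_ncard this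
    rw [Set.ncard_coe_finset] at h4
    exact h4.trans Finset.card_le_four
  by_cases ha : ∃ a ∈ X, a ≠ 1
  swap
  · push Not at ha
    exact key 1 1 fun c hc => Or.inl (ha c hc)
  obtain ⟨a, aX, a1⟩ := ha
  by_cases hb : ∃ b ∈ X, b ≠ 1 ∧ b ≠ a
  swap
  · push Not at hb
    exact key a 1 fun c hc => by have := hb c hc; tauto
  obtain ⟨b, bX, b1, ba⟩ := hb
  refine key a b fun c hc => ?_
  have := s4 a b c (sq a aX) (sq b bX) (comm_of_sq_eq_one sq aX bX) (sq c hc)
    (comm_of_sq_eq_one sq aX hc) (comm_of_sq_eq_one sq bX hc)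
  tauto

theorem red (hG : IsPGroup 2 G) (π : G →* Equiv.Perm (Fin 4))
    (h : ∀ V ≤ π.ker, V.Normal → Nat.card V = 4 → (∀ v ∈ V, v * v = 1) →
      ∀ m ∈ π.ker, (∀ g, g * m * g⁻¹ * m⁻¹ ∈ V) → m ∈ V) : SectionalPRankLE 2 4 G := by
  refine (sr_ext π (a := 2) (b := 2) ?_ (sr_s4 ?_)).sectional
  · by_cases hV : ∀ V ≤ π.ker, V.Normal → ¬ IsKleinFour V
    · exact rel hG _ inferInstance hV
    push Not at hV
    obtain ⟨V, h1, h2, h3⟩ := hV
    obtain ⟨h4, h5⟩ := isKleinFour_iff.1 h3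
    refine SR.of_card ((Subgroup.card_le_of_le (K := V) ?_).trans h4.le)
    by_contra hle
    obtain ⟨M, -, m1, m2, m3, m4⟩ := H10R.step hG h2 inferInstance h1 hle
    have := Subgroup.card_le_of_le (show M ≤ V from fun m hm =>
      h V h1 h2 h4 h5 m (m2 hm) fun g => m4 g m hm)
    omega
  · exact hG.of_surjective π.rangeRestrict π.rangeRestrict_surjective

end PA

open Subgroup PA

variable {P : Type*} [Group P] [Finite P] (hP : IsPGroup 2 P) (π : P →* Equiv.Perm (Fin 4))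
include hP

theorem pa2 (e : P) (he : e * e = 1) (_hπ : π e ≠ 1)
    (hc : Nat.card ↥(π.ker ⊓ centralizer {e}) ≤ 2) : Cfsg.SectionalPRankLE 2 4 P := by
  refine red hP π fun V h1 h2 h4 h5 m hm h => ?_
  obtain ⟨w, hw, hwe⟩ : ∃ w ∈ V, w ∉ π.ker ⊓ centralizer {e} := by
    by_contra hh
    push Not at hh
    have := card_le_of_le (show V ≤ _ from hh)
    omega
  have zV : e * w * e⁻¹ * w⁻¹ ∈ V := V.mul_mem (h2.conj_mem w hw e) (V.inv_mem hw)
  have z1 : e * w * e⁻¹ * w⁻¹ ≠ 1 := fun k => hwe ⟨h1 hw, mem_centralizer_singleton_iff.2 (by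
    rw [mul_inv_eq_one, mul_inv_eq_iff_eq_mul] at k; exact k.symm)⟩
  have zC : e * w * e⁻¹ * w⁻¹ ∈ π.ker ⊓ centralizer {e} :=
    ⟨h1 zV, mem_centralizer_singleton_iff.2 (fx he (h5 _ zV))⟩
  have CV : ∀ c ∈ π.ker, e * c * e⁻¹ * c⁻¹ = 1 → c ∈ V := fun c c1 c2 => by
    by_cases c3 : c = 1
    · rw [c3]; exact V.one_mem
    rw [mul_inv_eq_one, mul_inv_eq_iff_eq_mul] at c2
    rw [H10R.eq_of_two hc ⟨c1, mem_centralizer_singleton_iff.2 c2.symm⟩ zC c3 z1]; exact zV
  by_cases v1 : e * m * e⁻¹ * m⁻¹ = 1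
  · exact CV m hm v1
  have vz := H10R.eq_of_two hc ⟨h1 (h e), mem_centralizer_singleton_iff.2 (fx he (h5 _ (h e)))⟩
    zC v1 z1
  refine (V.mul_mem_cancel_left hw).1 (CV _ (mul_mem (h1 hw) hm) ?_)
  calc e * (w * m) * e⁻¹ * (w * m)⁻¹
      = e * w * e⁻¹ * w⁻¹ * (w * (e * m * e⁻¹ * m⁻¹)) * w⁻¹ := by group
    _ = 1 := by
      rw [vz, comm_of_sq_eq_one h5 hw zV, ← mul_assoc, h5 _ zV, one_mul, mul_inv_cancel]

theorem pa4 (x : P) (_hx : π (x * x) ≠ 1) (h4 : x ^ 4 = 1)
    (hc : Nat.card ↥(π.ker ⊓ centralizer {x * x}) ≤ 4)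
    (hR : ∀ r ∈ π.ker, r * (x * x) = (x * x) * r → r * x = x * r) :
    Cfsg.SectionalPRankLE 2 4 P := by
  refine red hP π fun V h1 h2 c4 h5 m hm h => ?_
  have dV : ∀ a ∈ V, x * a * x⁻¹ * a⁻¹ ∈ V := fun a ha =>
    V.mul_mem (h2.conj_mem a ha x) (V.inv_mem ha)
  have k1 : ∀ a, x * a * x⁻¹ * a⁻¹ ∈ V →
      x * a * x⁻¹ * a⁻¹ * (x * x) = x * x * (x * a * x⁻¹ * a⁻¹) → a * (x * x) = x * x * a := by
    intro a ha k
    have e := hR _ (h1 ha) k
    have e2 : x * x * a * (x * x)⁻¹ * a⁻¹ =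
        x * (x * a * x⁻¹ * a⁻¹) * x⁻¹ * (x * a * x⁻¹ * a⁻¹) := by group
    rw [← e, mul_inv_cancel_right, h5 _ ha, mul_inv_eq_one, mul_inv_eq_iff_eq_mul] at e2
    exact e2.symm
  have yy : x * x * (x * x) = 1 := by rw [← h4]; simp only [pow_succ, pow_zero, one_mul, mul_assoc]
  have VR : V ≤ π.ker ⊓ centralizer {x * x} := fun a ha => by
    refine ⟨h1 ha, mem_centralizer_singleton_iff.2 (k1 a (dV a ha) (k1 _ (dV _ (dV a ha)) ?_))⟩
    have e : x * (x * a * x⁻¹ * a⁻¹) * x⁻¹ * (x * a * x⁻¹ * a⁻¹)⁻¹ =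
        x * x * a * (x * x)⁻¹ * a⁻¹ := by
      rw [inv_eq_of_mul_eq_one_right (h5 _ (dV a ha))]; group
    rw [e]
    exact fx yy (e ▸ h5 _ (dV _ (dV a ha)))
  rw [eq_of_le_of_card_ge VR (by omega)]
  exact ⟨hm, mem_centralizer_singleton_iff.2 (k1 m (h x)
    (mem_centralizer_singleton_iff.1 (VR (h x)).2))⟩

end Cfsg.Agent.FX
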