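import Cfsg.Agent.HaR.R
import Cfsg.Agent.HaR.F
import Cfsg.Agent.MW.Small

set_option autoImplicit false
open Subgroup

namespace Cfsg.Agent.FX
variable {P : Type*} [Group P] [Finite P]

theorem pb1 (hP : IsPGroup 2 P) (E : Subgroup P) [E.Normal] (hE : ∀ a ∈ E, a * a = 1)
    (h16 : Nat.card E = 16) (h : ∀ x, x ∉ E → Nat.card ↥(E ⊓ centralizer {x}) ≤ 4) :
    Cfsg.SectionalPRankLE 2 4 P := by
  have hc : ∀ a ∈ E, ∀ b ∈ E, a * b = b * a := fun a ha b hb => by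
    have := HaR.cmN (N := ⊥) (fun x hx => mem_bot.2 (hE x hx)) ha hb
    rwa [mem_bot, mul_inv_eq_one, mul_inv_eq_iff_eq_mul] at this
  obtain ⟨V, vn, hle, v8⟩ := HaR.exV hP E (by omega)
  have hV : HaR.E8 V := ⟨hP, vn, fun a ha b hb => hc a (hle ha) b (hle hb),
    fun a ha => hE a (hle ha), v8⟩
  have hK : centralizer (V : Set P) ≤ E := fun x hx => by
    by_contra hn
    have := (card_le_of_le (K := E ⊓ centralizer {x}) fun v hv =>
      ⟨hle hv, mem_centralizer_singleton_iff.2 (mem_centralizer_iff.1 hx v hv)⟩).trans (h x hn)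
    omega
  refine HaR.red fun H N hl hs => ?_
  by_cases hH : H ≤ E
  · exact (Nat.le_of_dvd Nat.card_pos (relIndex_dvd_card N H)).trans (h16 ▸ card_le_of_le hH)
  obtain ⟨x, hx, xE⟩ := SetLike.not_le_iff_exists.1 hH
  have q4 : (N ⊔ H ⊓ E).relIndex H ≤ 4 :=
    HaR.quo4 hV ((inf_le_inf_left H hK).trans le_sup_right) (sup_le hl inf_le_left)
      fun x hx => mem_sup_left (hs x hx)
  by_contra hb
  have b4 := HaR.big hl hs q4 (not_le.1 hb)
  have r1 := HaR.rc N (H ⊓ E)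
  have r2 := HaR.rc (centralizer {x}) (H ⊓ E)
  have r3 := MW.ri_le (T := H ⊓ E) (Z := N ⊓ (H ⊓ E)) (a := x) fun t ht =>
    ⟨HaR.cmN hs ht.1 hx, hl (HaR.cmN hs ht.1 hx), by
      have := mul_mem ht.2 ((inferInstance : E.Normal).conj_mem _ (inv_mem ht.2) x)
      simpa [mul_assoc] using this⟩
  have r4 : Nat.card ↥(centralizer {x} ⊓ (H ⊓ E)) ≤ 4 :=
    (card_le_of_le (le_inf (inf_le_right.trans inf_le_right) inf_le_left)).trans (h x xE)
  have p1 : 0 < Nat.card ↥(N ⊓ (H ⊓ E)) := Nat.card_pos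
  have := Nat.mul_le_mul r4 r3
  nlinarith

end Cfsg.Agent.FX
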