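import Cfsg.Agent.FX.B2a
import Cfsg.Agent.MW.Big3

/-! Sectional rank of a `2`-group with a non-normal elementary abelian subgroup of order sixteen. -/

set_option autoImplicit false

namespace Cfsg.Agent.FX

open Subgroup

theorem pb2 {P : Type*} [Group P] [Finite P] (hP : IsPGroup 2 P) (E : Subgroup P) (hn : ¬ E.Normal)
    (hE : ∀ a ∈ E, a * a = 1) (h16 : Nat.card E = 16)
    (h : ∀ x ∈ normalizer (E : Set P), x ∉ E → Nat.card ↥(E ⊓ centralizer {x}) ≤ 4) :
    Cfsg.SectionalPRankLE 2 4 P :=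
  (MW.Big.main hP fun A nA _ hA => B2.main hP E hn hE h16 h A nA fun a ha => sq a ▸ hA a ha).sectional

end Cfsg.Agent.FX
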