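import Cfsg.Agent.H11.SRank
import Cfsg.Agent.H1.SylowIn

/-! A non-normal elementary abelian subgroup of order sixteen with small centralizers. -/

set_option autoImplicit false

namespace Cfsg.Agent.FX

open Subgroup H11

variable {P : Type*} [Group P] [Finite P]

theorem B2.key {E : Subgroup P} (hE : ∀ a ∈ E, a * a = 1) (h16 : Nat.card E = 16) {t : P}
    (hn : t ∈ normalizer (E : Set P)) (ht : t * t = 1) (h4 : Nat.card ↥(E ⊓ centralizer {t}) ≤ 4) :
    4 ≤ Nat.card ↥(E ⊓ centralizer {t}) ∧ ∀ c ∈ E, c * t = t * c → ∃ e ∈ E, c = e * (t * e * t⁻¹) := by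
  obtain ⟨K, le, hK, c⟩ := exists_comm_sub hE hn (by simp [ht])
  have a := card_le_of_le le
  rw [h16] at c
  have b : 4 ≤ Nat.card K := by nlinarith
  exact ⟨b.trans a, fun x hx e => hK x (eq_of_le_of_card_ge le (h4.trans b) ▸
    ⟨hx, mem_centralizer_singleton_iff.2 e⟩)⟩

theorem B2.main (hP : IsPGroup 2 P) (E : Subgroup P) (hn : ¬ E.Normal) (hE : ∀ a ∈ E, a * a = 1)
    (h16 : Nat.card E = 16)
    (h : ∀ x ∈ normalizer (E : Set P), x ∉ E → Nat.card ↥(E ⊓ centralizer {x}) ≤ 4)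
    (A : Subgroup P) (nA : A.Normal) (hA : ∀ a ∈ A, a * a = 1) : Nat.card A ≤ 4 := by
  have : Fact (Nat.Prime 2) := ⟨Nat.prime_two⟩
  have nil : ∀ Q : Subgroup P, Group.IsNilpotent Q := fun Q => (hP.to_subgroup Q).isNilpotent
  obtain ⟨g, gN, gn, gg⟩ := exists_sq_mem_of_not_le
    (X := normalizer ((normalizer (E : Set P) : Subgroup P) : Set P)) (T := normalizer (E : Set P))
    (hP.to_subgroup _) fun le => (H1.lt_normalizer_inf_of_isNilpotent (nil ⊤)
      (lt_top_iff_ne_top.2 fun e => hn (normalizer_eq_top_iff.1 e))).not_ge (inf_le_left.trans le)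
  have NF : normalizer (cj g E : Set P) = normalizer (E : Set P) := by
    rw [← cj_normalizer]; exact cj_eq_iff.2 gN
  have hF : ∀ a ∈ cj g E, a * a = 1 := fun a ha => by
    simpa [mul_assoc, mul_eq_one_iff_eq_inv] using congrArg (g * · * g⁻¹) (hE _ (mem_cj.1 ha))
  have cF : Nat.card (cj g E) = 16 := by rw [card_cj, h16]
  have FN : cj g E ≤ normalizer (E : Set P) := NF ▸ le_normalizer
  have EN : E ≤ normalizer (cj g E : Set P) := NF ▸ le_normalizer
  have ce := @comm_of_sq_eq_one _ _ _ hE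
  have cf := @comm_of_sq_eq_one _ _ _ hF
  have ca := @comm_of_sq_eq_one _ _ _ hA
  have C : ∀ e ∈ E, ∀ f ∈ cj g E, e * f = f * e → f ∉ E → e ∈ cj g E := fun e he f hf c n => by
    obtain ⟨a, ha, rfl⟩ := (B2.key hE h16 (FN hf) (hF f hf) (h f (FN hf) n)).2 e he c
    rw [show a * (f * a * f⁻¹) = a * f * a⁻¹ * f⁻¹ by rw [← eq_inv_of_mul_eq_one_left (hE a ha)]; group]
    exact mul_mem ((mem_normalizer_iff.1 (EN ha) f).1 hf) (inv_mem hf)
  have FE : ∀ d, g * d * g⁻¹ ∈ E → d ∈ cj g E := fun d hd => mem_cj.2 (by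
    simpa [mul_assoc] using (mem_normalizer_iff''.1 gg _).1 hd)
  have AE : ∀ d ∈ A, d ∈ E → d ∈ cj g E := fun d hd he => by
    by_contra n
    exact n (C d he _ (mem_cj.2 (by simpa [mul_assoc] using he)) (ca hd (nA.conj_mem d hd g)) fun c => n (FE d c))
  have AF : ∀ d ∈ A, d ∈ cj g E → d ∈ E := fun d hd hf => by
    have := mem_cj.1 (AE _ (nA.conj_mem' d hd g) (mem_cj.1 hf))
    exact (mem_normalizer_iff''.1 gg d).2 (by simpa [mul_assoc] using this)
  obtain ⟨e, he, ne⟩ : ∃ e ∈ E, e ∉ cj g E := by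
    by_contra! c
    exact gn (cj_eq_iff.1 (eq_of_le_of_card_ge c (by rw [cF, h16])).symm)
  obtain ⟨z, hz, nz⟩ : ∃ e ∈ cj g E, e ∉ E := by
    by_contra! c
    exact gn (cj_eq_iff.1 (eq_of_le_of_card_ge c (by rw [cF, h16])))
  have R : Nat.card ↥(E ⊓ cj g E) ≤ 4 := (card_le_of_le (fun r hr =>
    ⟨hr.1, mem_centralizer_singleton_iff.2 (cf hr.2 hz)⟩ : E ⊓ cj g E ≤ E ⊓ centralizer {z})).trans (h z (FN hz) nz)
  have k := (B2.key hF cF (EN he) (hE e he) ((card_le_of_le (fun f hf => ⟨by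
    by_contra n
    exact ne (C e he f hf.1 (mem_centralizer_singleton_iff.1 hf.2).symm n), hf.1⟩ :
      cj g E ⊓ centralizer {e} ≤ E ⊓ cj g E)).trans R)).2
  have AN : ∀ b ∈ A, b ∈ normalizer (E : Set P) → b ∈ E := fun b hb bN => by
    by_contra n
    obtain ⟨k1, k2⟩ := B2.key hE h16 bN (hA b hb) (h b bN n)
    have m : ∀ a ∈ E, a * (b * a * b⁻¹) ∈ cj g E := fun a ha => AE _ (by
      rw [show a * (b * a * b⁻¹) = a * b * a⁻¹ * b⁻¹ by rw [← eq_inv_of_mul_eq_one_left (hE a ha)]; group]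
      exact mul_mem (nA.conj_mem b hb a) (inv_mem hb)) (mul_mem ha ((mem_normalizer_iff.1 bN a).1 ha))
    have be := (mem_normalizer_iff.1 bN e).1 he
    obtain ⟨f, hf, q⟩ := k _ (m e he) (ce (mul_mem he be) he)
    have fe := (mem_normalizer_iff.1 (FN hf) e).1 he
    have i := eq_inv_of_mul_eq_one_left (hF f hf)
    have q' : b * e * b⁻¹ = f * e * f⁻¹ := mul_left_cancel (a := e) (by
      rw [q, ce he fe, ← i, ← eq_inv_of_mul_eq_one_left (hE e he)]; group)
    have yE : f⁻¹ * b ∈ E := by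
      by_contra c
      have := two_mul_card_le_of_lt (N := E ⊓ centralizer {b}) (M := E ⊓ centralizer {f⁻¹ * b}) (fun r hr => ⟨hr.1, by
        have rb := mem_centralizer_singleton_iff.1 hr.2
        obtain ⟨a, ha, e⟩ := k2 r hr.1 rb
        exact mem_centralizer_singleton_iff.2 ((show Commute r f from cf (e ▸ m a ha) hf).inv_right.mul_right rb)⟩)
        (x := e) ⟨he, mem_centralizer_singleton_iff.2 (by
          calc e * (f⁻¹ * b) = f⁻¹ * (f * e * f⁻¹) * b := by group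
            _ = _ := by rw [← q']; group)⟩ fun hr => by
          obtain ⟨a, ha, e⟩ := k2 _ he (mem_centralizer_singleton_iff.1 hr.2)
          exact ne (e ▸ m a ha)
      have := h _ (mul_mem (inv_mem (FN hf)) bN) c
      omega
    refine n (AF b hb ((mul_mem_cancel_left (inv_mem hf)).1 (C _ yE f hf ?_ fun c =>
      n ((mul_mem_cancel_left (inv_mem c)).1 yE))))
    have := eq_inv_of_mul_eq_one_left (hE _ yE)
    rw [mul_inv_rev, inv_inv, ← eq_inv_of_mul_eq_one_left (hA b hb)] at this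
    rw [mul_assoc, ← this, ← i]
  have le : A ≤ E := by
    by_contra c
    obtain ⟨x, ⟨xN, hx⟩, n⟩ := SetLike.exists_of_lt (H1.lt_normalizer_inf_of_isNilpotent (nil (A ⊔ E))
      (lt_of_le_of_ne le_sup_right fun e => c (e ▸ le_sup_left)))
    obtain ⟨a, ha, y, hy, rfl⟩ := mem_sup_of_normal_left.1 hx
    exact n (mul_mem (AN a ha ((mul_mem_cancel_right (le_normalizer hy)).1 xN)) hy)
  exact (card_le_of_le (fun a ha => ⟨le ha, AE a ha (le ha)⟩ : A ≤ E ⊓ cj g E)).trans R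

end Cfsg.Agent.FX
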