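import Cfsg.Agent.S0501
import Cfsg.Agent.S1232
import Cfsg.Agent.MW.Small
import Cfsg.Agent.H1.Basic

/-! Two-groups with an involution whose centralizer is small modulo a cyclic group. -/

set_option autoImplicit false
set_option linter.style.haveILetI false

namespace Cfsg.Agent.FX

open Subgroup

namespace PC

set_option synthInstance.maxSize 2000 in
theorem s4 : ∀ u v w : Equiv.Perm (Fin 4), u * u = 1 → v * v = 1 → u ≠ 1 → v ≠ 1 → u ≠ v →
    u * v = v * u → u * w = w * u → v * w = w * v → w = 1 ∨ w = u ∨ w = v ∨ w = u * v := by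
  decide +kernel

theorem cm_of_sq {G : Type*} [Group G] {V : Subgroup G} (h : ∀ v ∈ V, v * v = 1) {a b : G}
    (ha : a ∈ V) (hb : b ∈ V) : a * b = b * a := by
  rw [← inv_eq_of_mul_eq_one_right (h _ (mul_mem ha hb)), mul_inv_rev,
    inv_eq_of_mul_eq_one_right (h a ha), inv_eq_of_mul_eq_one_right (h b hb)]

theorem four (V : Subgroup (Equiv.Perm (Fin 4))) (h : ∀ v ∈ V, v * v = 1) :
    Nat.card V ≤ 4 ∧ (2 < Nat.card V → ∀ w, (∀ v ∈ V, v * w = w * v) → w ∈ V) := by
  have cm : ∀ a ∈ V, ∀ b ∈ V, a * b = b * a := fun a ha b hb => cm_of_sq h ha hb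
  by_cases h2 : 2 < Nat.card V
  · haveI := Fintype.ofFinite V
    rw [Nat.card_eq_fintype_card] at h2
    have h3 : ∃ u ∈ V, ∃ v ∈ V, u ≠ 1 ∧ v ≠ 1 ∧ u ≠ v := by
      obtain ⟨a, b, c, hab, hac, hbc⟩ := Fintype.two_lt_card_iff.1 h2
      refine ⟨_, (a⁻¹ * b).2, _, (a⁻¹ * c).2, fun e => hab ?_, fun e => hac ?_, fun e => hbc ?_⟩
      · exact inv_mul_eq_one.1 (Subtype.ext e)
      · exact inv_mul_eq_one.1 (Subtype.ext e)
      · exact mul_left_cancel (Subtype.ext e : a⁻¹ * b = a⁻¹ * c)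
    obtain ⟨u, hu, v, hv, u1, v1, uv⟩ := h3
    have key : ∀ w, (∀ v ∈ V, v * w = w * v) → w = 1 ∨ w = u ∨ w = v ∨ w = u * v := fun w hw =>
      s4 u v w (h u hu) (h v hv) u1 v1 uv (cm u hu v hv) (hw u hu) (hw v hv)
    refine ⟨?_, fun _ w hw => ?_⟩
    · have : (V : Set (Equiv.Perm (Fin 4))) ⊆ {1, u, v, u * v} := fun w hw =>
        key w fun a ha => cm a ha w hw
      refine (Set.ncard_le_ncard this).trans ?_
      refine (Set.ncard_insert_le _ _).trans (Nat.succ_le_succ ?_)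
      refine (Set.ncard_insert_le _ _).trans (Nat.succ_le_succ ?_)
      refine (Set.ncard_insert_le _ _).trans (Nat.succ_le_succ ?_)
      simp
    · rcases key w hw with e | e | e | e <;> rw [e]
      exacts [one_mem _, hu, hv, mul_mem hu hv]
  · exact ⟨by omega, fun h3 => absurd h3 h2⟩

variable {P : Type*} [Group P] [Finite P]

theorem gen {x t : P} (π : ↥(centralizer ({t} : Set P)) →* Equiv.Perm (Fin 4))
    (hk : ∀ r, π r = 1 ↔ (r : P) ∈ zpowers x) {D : Subgroup P} (hD : D ≤ centralizer {t})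
    (hs : ∀ d ∈ D, d * d = 1) {m : ℕ} (hm : Nat.card ↥(D ⊓ zpowers x) ≤ m) :
    Nat.card D ≤ m * 4 ∧ (m * 2 < Nat.card D → ∀ c ∈ centralizer {t}, (∀ d ∈ D, d * c = c * d) →
      ∃ d ∈ D, d⁻¹ * c ∈ zpowers x) := by
  let f : D →* Equiv.Perm (Fin 4) := π.comp (inclusion hD)
  have h1 : Nat.card f.ker ≤ m := by
    refine (Nat.card_le_card_of_injective
      (fun a : f.ker => (⟨a.1.1, a.1.2, (hk _).1 a.2⟩ : ↥(D ⊓ zpowers x))) fun a b e => ?_).trans hm
    have e' : a.1.1 = b.1.1 := congrArg (fun u : ↥(D ⊓ zpowers x) => (u : P)) e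
    exact Subtype.ext (Subtype.ext e')
  have h2 : Nat.card f.ker * Nat.card f.range = Nat.card D := by
    rw [← index_ker, card_mul_index]
  obtain ⟨h3, h4⟩ := four f.range (by
    rintro _ ⟨d, rfl⟩
    rw [← map_mul, show d * d = 1 from Subtype.ext (hs d d.2), map_one])
  refine ⟨h2 ▸ Nat.mul_le_mul h1 h3, fun h5 c hc hcd => ?_⟩
  obtain ⟨d, hd⟩ := h4 (by
    by_contra h6
    have := Nat.mul_le_mul h1 (not_lt.1 h6)
    omega) (π ⟨c, hc⟩) (by
    rintro _ ⟨d, rfl⟩
    exact (map_mul π _ _).symm.trans ((congrArg π (Subtype.ext (hcd d d.2))).trans (map_mul π _ _)))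
  have h6 : π ((inclusion hD d)⁻¹ * ⟨c, hc⟩) = 1 := by
    rw [map_mul, map_inv, ← hd]
    exact inv_mul_cancel _
  exact ⟨d, d.2, (hk _).1 h6⟩

theorem fin (hP : IsPGroup 2 P) {D : Subgroup P} (hs : ∀ d ∈ D, d * d = 1) (h4 : 4 < Nat.card D)
    (h8 : Nat.card D ≤ 8) (hC : ∀ c, (∀ d ∈ D, d * c = c * d) → c ∈ D) : SectionalPRankLE 2 4 P := by
  have cm : ∀ a ∈ D, ∀ b ∈ D, a * b = b * a := fun a ha b hb => cm_of_sq hs ha hb
  refine S1232.result hP D ⟨⟨⟨fun a b => Subtype.ext (cm a a.2 b b.2)⟩⟩,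
    fun a ha => by rw [pow_two, hs a ha]⟩ ?_ (le_antisymm hC fun a ha b hb => cm b hb a ha)
  obtain ⟨k, hk⟩ := IsPGroup.iff_card.1 (hP.to_subgroup D)
  rw [hk] at h4 h8 ⊢
  have h1 : 2 < k := (Nat.pow_lt_pow_iff_right one_lt_two).1 h4
  have h2 : k ≤ 3 := (Nat.pow_le_pow_iff_right one_lt_two).1 h8
  rw [show k = 3 by omega]; rfl

theorem zp4 {x t : P} (e : x * x = t) (t2 : t * t = 1) {y : P} (hy : y ∈ zpowers x) :
    y = 1 ∨ y = x ∨ y = t ∨ y = t * x := by
  have h4 : x ^ 4 = 1 := by rw [← t2, ← e]; simp [pow_succ, mul_assoc]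
  obtain ⟨k, rfl⟩ := (mem_powers_iff_mem_zpowers.2 hy)
  change x ^ k = 1 ∨ x ^ k = x ∨ x ^ k = t ∨ x ^ k = t * x
  rw [pow_eq_pow_mod k h4, ← e]
  have : k % 4 < 4 := Nat.mod_lt _ (by norm_num)
  interval_cases k % 4 <;> simp [pow_succ]

end PC

open PC in
theorem pc {P : Type*} [Group P] [Finite P] (hP : IsPGroup 2 P) (x t : P) (ht : orderOf t = 2)
    (hx : x = t ∨ (x * x = t ∧ centralizer {t} ≠ ⊤))
    (π : ↥(centralizer ({t} : Set P)) →* Equiv.Perm (Fin 4))
    (hk : ∀ r, π r = 1 ↔ (r : P) ∈ zpowers x) : SectionalPRankLE 2 4 P := by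
  by_cases hE : ∀ A : Subgroup P, A.Normal → IsMulCommutative A → (∀ a ∈ A, a ^ 2 = 1) →
    Nat.card A ≤ 4
  · exact S0501.result hP hE
  push Not at hE
  obtain ⟨A, hA, -, hs, h4⟩ := hE
  replace hs : ∀ a ∈ A, a * a = 1 := fun a ha => by rw [← pow_two, hs a ha]
  have cm : ∀ a ∈ A, ∀ b ∈ A, a * b = b * a := fun a ha b hb => cm_of_sq hs ha hb
  have t2 : t * t = 1 := by rw [← pow_two, ← ht, pow_orderOf_eq_one]
  have t1 : t ≠ 1 := fun e => by simp [e] at ht
  have mc : ∀ {c : P}, c ∈ centralizer ({t} : Set P) ↔ c * t = t * c :=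
    mem_centralizer_singleton_iff
  have zt : Nat.card (zpowers t) = 2 := by rw [Nat.card_zpowers, ht]
  rcases hx with rfl | ⟨e, hR⟩
  · let D : Subgroup P := (centralizer {x} ⊓ A) ⊔ zpowers x
    have hxD : x ∈ D := mem_sup_right (mem_zpowers x)
    have hD : D ≤ centralizer {x} := sup_le inf_le_left (zpowers_le.2 (mc.2 rfl))
    have hsD : ∀ d ∈ D, d * d = 1 := by
      let D' : Subgroup P :=
        { carrier := {d | ∃ b ∈ centralizer {x} ⊓ A, d = b ∨ d = b * x}
          one_mem' := ⟨1, one_mem _, Or.inl rfl⟩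
          mul_mem' := by
            rintro _ _ ⟨a, ha, rfl | rfl⟩ ⟨b, hb, rfl | rfl⟩ <;> refine ⟨_, mul_mem ha hb, ?_⟩
            · exact Or.inl rfl
            · exact Or.inr (mul_assoc _ _ _).symm
            · exact Or.inr (by rw [mul_assoc, ← mc.1 hb.1, mul_assoc])
            · exact Or.inl (by rw [mul_assoc, ← mul_assoc x, ← mc.1 hb.1, mul_assoc, t2, mul_one])
          inv_mem' := by
            rintro _ ⟨a, ha, rfl | rfl⟩ <;> refine ⟨_, inv_mem ha, ?_⟩
            · exact Or.inl rfl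
            · exact Or.inr (by rw [mul_inv_rev, inv_eq_of_mul_eq_one_right t2, mc.1 (inv_mem ha).1]) }
      have : D ≤ D' := sup_le (fun b hb => ⟨b, hb, Or.inl rfl⟩)
        (zpowers_le.2 ⟨1, one_mem _, Or.inr (one_mul _).symm⟩)
      intro d hd
      obtain ⟨b, hb, rfl | rfl⟩ := this hd
      · exact hs _ hb.2
      · rw [mul_assoc, ← mul_assoc x, ← mc.1 hb.1, mul_assoc, t2, mul_one, hs b hb.2]
    have h5 : 4 < Nat.card D := by
      by_cases hxA : x ∈ A
      · exact h4.trans_le (card_le_of_le fun a ha => mem_sup_left ⟨mc.2 (cm a ha x hxA), ha⟩)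
      have h6 := MW.ri_le (T := A) (Z := centralizer {x} ⊓ A) (a := x) fun a ha => by
        have h7 : x * a⁻¹ * x⁻¹ ∈ A := hA.conj_mem _ (inv_mem ha) x
        refine mem_inf.2 ⟨mc.2 ?_, by simpa only [mul_assoc] using mul_mem ha h7⟩
        have h8 := cm _ ha _ h7
        rw [inv_eq_of_mul_eq_one_right t2, inv_eq_of_mul_eq_one_right (hs a ha)] at h8 ⊢
        calc a * x * a * x * x = (x * x) * a * x * a := by
              rw [mul_assoc (a * x * a), t2, mul_one, one_mul]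
          _ = x * (x * a * x * a) := by simp only [mul_assoc]
          _ = _ := by rw [← h8]; simp only [mul_assoc]
      have h7 := H1.card_inf_mul_relIndex (centralizer ({x} : Set P)) A
      have h8 : 3 ≤ Nat.card ↥(centralizer {x} ⊓ A) := by
        by_contra h9
        have := Nat.mul_le_mul (show Nat.card ↥(centralizer {x} ⊓ A) ≤ 2 by omega)
          (h6.trans (show Nat.card ↥(centralizer {x} ⊓ A) ≤ 2 by omega))
        omega
      obtain ⟨c, hc⟩ := card_dvd_of_le (le_sup_left : centralizer {x} ⊓ A ≤ D)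
      have h9 : c ≠ 1 := fun e => hxA (by
        rw [e, mul_one] at hc
        exact ((eq_of_le_of_card_ge (le_sup_left : centralizer {x} ⊓ A ≤ D) hc.le).ge hxD).2)
      have h10 : c ≠ 0 := fun e => by
        rw [e, mul_zero] at hc
        exact Nat.card_pos.ne' hc
      have := Nat.mul_le_mul h8 (show 2 ≤ c by omega)
      rw [← hc] at this
      exact lt_of_lt_of_le (by norm_num) this
    obtain ⟨g1, g2⟩ := gen π hk hD hsD (m := 2) (zt ▸ card_le_of_le inf_le_right)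
    refine fin hP hsD h5 g1 fun c hc => ?_
    obtain ⟨d, hd, h6⟩ := g2 h5 c (mc.2 (hc x hxD).symm) hc
    simpa using mul_mem hd (mem_sup_right h6 : d⁻¹ * c ∈ D)
  have xt : x * t = t * x := by rw [← e, mul_assoc]
  have hz : ∀ a ∈ A, a ∈ zpowers x → a = 1 ∨ a = t := fun a ha h => by
    rcases zp4 e t2 h with h1 | h1 | h1 | h1
    · exact Or.inl h1
    · exact absurd (e ▸ h1 ▸ hs a ha) t1
    · exact Or.inr h1
    · have := hs a ha
      rw [h1, mul_assoc, ← mul_assoc x, xt, mul_assoc, e, t2, mul_one] at this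
      exact absurd this t1
  by_cases htA : t ∈ A
  · have hD : A ≤ centralizer {t} := fun a ha => mc.2 (cm a ha t htA)
    obtain ⟨g1, g2⟩ := gen π hk hD hs (m := 2) (zt ▸ card_le_of_le fun a ha => by
      rcases hz a ha.1 ha.2 with rfl | rfl
      exacts [one_mem _, mem_zpowers _])
    have hxc : ¬ ∀ d ∈ A, d * x = x * d := fun hc => hR (eq_top_iff.2 fun g _ => by
      have h5 : ∀ d ∈ A, d * (g * x * g⁻¹) = g * x * g⁻¹ * d := fun d hd => by
        have := hc _ (hA.conj_mem d hd g⁻¹)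
        calc d * (g * x * g⁻¹) = g * (g⁻¹ * d * g⁻¹⁻¹ * x) * g⁻¹ := by group
          _ = _ := by rw [this]; group
      obtain ⟨d, hd, k, hk'⟩ := g2 h4 _ (mc.2 (h5 t htA).symm) h5
      have h6 : g * x * g⁻¹ = d * x ^ k := by rw [show x ^ k = _ from hk']; group
      have h7 : g * t * g⁻¹ = x ^ k * x ^ k := by
        have h8 : Commute d (x ^ k) := (show Commute d x from hc d hd).zpow_right k
        calc g * t * g⁻¹ = g * x * g⁻¹ * (g * x * g⁻¹) := by rw [← e]; group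
          _ = d * (x ^ k * d) * x ^ k := by rw [h6]; group
          _ = _ := by rw [← h8.eq, ← mul_assoc, hs d hd, one_mul]
      rcases hz _ (hA.conj_mem t htA g) (h7 ▸ mul_mem (zpow_mem_zpowers x k) (zpow_mem_zpowers x k))
        with h8 | h8
      · exact absurd (by simpa using h8) t1
      · exact mc.2 (mul_inv_eq_iff_eq_mul.1 h8))
    refine fin hP hs h4 g1 fun c hc => ?_
    obtain ⟨d, hd, h6⟩ := g2 h4 c (mc.2 (hc t htA).symm) hc
    have h7 : ∀ a ∈ A, a * (d⁻¹ * c) = d⁻¹ * c * a := fun a ha => by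
      rw [← mul_assoc, cm a ha _ (inv_mem hd), mul_assoc, hc a ha, mul_assoc]
    have h8 : d⁻¹ * c ∈ A := by
      rcases zp4 e t2 h6 with h1 | h1 | h1 | h1 <;> rw [h1] at h7 ⊢
      · exact one_mem _
      · exact absurd h7 hxc
      · exact htA
      · refine absurd (fun a ha => ?_) hxc
        have := h7 a ha
        rw [← mul_assoc, cm a ha t htA, mul_assoc, mul_assoc] at this
        exact mul_left_cancel this
    simpa using mul_mem hd h8
  exfalso
  have hz' : ∀ a ∈ A, a ∈ zpowers x → a = 1 := fun a ha h =>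
    (hz a ha h).resolve_right fun e => htA (e ▸ ha)
  have k1 : ∀ a ∈ A, a * t = t * a → x * a * x⁻¹ = a := fun a ha h => by
    have h5 : a⁻¹ * (x * a * x⁻¹) = 1 := by
      refine hz' _ (mul_mem (inv_mem ha) (hA.conj_mem a ha x))
        ((hk ((⟨a, mc.2 h⟩ : centralizer {t})⁻¹ * (⟨x, mc.2 xt⟩ * ⟨a, mc.2 h⟩ * ⟨x, mc.2 xt⟩⁻¹))).1 ?_)
      simp only [map_mul, map_inv, (hk ⟨x, mc.2 xt⟩).2 (mem_zpowers x)]
      simp
    exact (inv_mul_eq_one.1 h5).symm
  have k2 : ∀ a ∈ A, x * (a * (x * a * x⁻¹)) * x⁻¹ = a * (x * a * x⁻¹) → a * t = t * a :=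
    fun a ha h => by
      have h5 : x * a * x⁻¹ * (t * a * t⁻¹) = x * a * x⁻¹ * a := by
        rw [← cm a ha _ (hA.conj_mem a ha x), ← h, ← e]; group
      exact (mul_inv_eq_iff_eq_mul.1 (mul_left_cancel h5)).symm
  have hD : A ≤ centralizer {t} := fun a ha => by
    have h5 := hA.conj_mem a ha x
    have h6 := hA.conj_mem a ha t
    refine mc.2 (k2 a ha (k1 _ (mul_mem ha h5) (k2 _ (mul_mem ha h5) (k1 _
      (mul_mem (mul_mem ha h5) (hA.conj_mem _ (mul_mem ha h5) x)) ?_))))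
    have h7 : a * (x * a * x⁻¹) * (x * (a * (x * a * x⁻¹)) * x⁻¹) = a * (t * a * t⁻¹) := by
      calc _ = a * (x * (a * a) * x⁻¹) * (x * x * a * (x * x)⁻¹) := by group
        _ = _ := by rw [hs a ha, e]; group
    rw [h7]
    calc a * (t * a * t⁻¹) * t = a * t * a := by group
      _ = t * (t⁻¹ * a * t * a) := by
        rw [show t * (t⁻¹ * a * t * a) = a * t * a by group]
      _ = t * (t * a * t⁻¹ * a) := by rw [inv_eq_of_mul_eq_one_right t2]
      _ = _ := by rw [cm _ h6 a ha]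
  have := (gen π hk hD hs (m := 1) (by
    rw [show A ⊓ zpowers x = ⊥ from eq_bot_iff.2 fun a ha => hz' a ha.1 ha.2, card_bot])).1
  omega

end Cfsg.Agent.FX
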