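import Mathlib
import Cfsg.Agent.H11.Syl

set_option autoImplicit false
set_option linter.unusedSectionVars false

namespace Cfsg.Agent.FX

open Subgroup MulAction
open scoped commutatorElement
open Cfsg.Agent.H11 (IsSylIn cj)

namespace M3

variable {G Ω : Type*} [Group G] [Finite G] [MulAction G Ω] [Finite Ω]

variable (G) in
/-- setwise stabiliser -/
def SM (Φ : Set Ω) : Subgroup G where
  carrier := {g | ∀ β, g • β ∈ Φ ↔ β ∈ Φ}
  mul_mem' := fun {a b} ha hb β => by rw [mul_smul, ha, hb]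
  one_mem' := fun β => by rw [one_smul]
  inv_mem' := fun {a} ha β => by rw [← ha, smul_inv_smul]

variable (G) in
/-- pointwise stabiliser -/
def PK (Φ : Set Ω) : Subgroup G where
  carrier := {g | ∀ β ∈ Φ, g • β = β}
  mul_mem' := fun {a b} ha hb β h => by rw [mul_smul, hb β h, ha β h]
  one_mem' := fun β _ => one_smul _ _
  inv_mem' := fun {a} ha β h => by rw [inv_smul_eq_iff, ha β h]

theorem mem_SM {Φ : Set Ω} {g : G} : g ∈ SM G Φ ↔ ∀ β, g • β ∈ Φ ↔ β ∈ Φ := Iff.rfl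
theorem mem_PK {Φ : Set Ω} {g : G} : g ∈ PK G Φ ↔ ∀ β ∈ Φ, g • β = β := Iff.rfl

/-- the action on the set -/
def ψ (Φ : Set Ω) : SM G Φ →* Equiv.Perm Φ where
  toFun g := (MulAction.toPerm (g : G)).subtypePerm g.2
  map_one' := by ext x; simp
  map_mul' a b := by ext x; exact mul_smul (a : G) (b : G) (x : Ω)

theorem ψ_eq_one {Φ : Set Ω} {g : SM G Φ} : ψ Φ g = 1 ↔ (g : G) ∈ PK G Φ := by
  constructor
  · intro h β hβ
    exact congrArg (fun e : Equiv.Perm Φ => ((e ⟨β, hβ⟩ : Φ) : Ω)) h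
  · intro h
    ext x
    exact h x x.2

theorem PK_conj {Φ : Set Ω} {m k : G} (hm : m ∈ SM G Φ) (hk : k ∈ PK G Φ) :
    m * k * m⁻¹ ∈ PK G Φ := fun β hβ => by
  rw [mul_smul, mul_smul, hk _ ((inv_mem hm β).2 hβ), smul_inv_smul]

theorem memSM {Δ : Set Ω} {g x : G} (h1 : fixedBy Ω x = Δ) (h2 : fixedBy Ω (g * x * g⁻¹) = Δ) :
    g ∈ SM G Δ := fun β => by
  conv_lhs => rw [← h2]
  rw [← h1, mem_fixedBy, mem_fixedBy, mul_smul, mul_smul, inv_smul_smul, smul_left_cancel_iff]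

theorem card_fix (g x : G) : Nat.card (fixedBy Ω (g * x * g⁻¹)) = Nat.card (fixedBy Ω x) :=
  (Nat.card_congr (Equiv.subtypeEquiv (MulAction.toPerm g) fun β => by
    rw [mem_fixedBy, mem_fixedBy, MulAction.toPerm_apply, mul_smul, mul_smul, inv_smul_smul,
      smul_left_cancel_iff])).symm

theorem dvd3 {Φ : Set Ω} (hΦ : Nat.card Φ ≤ 4) (Q : Subgroup (Equiv.Perm Φ)) (hQ : IsPGroup 3 Q) :
    Nat.card Q ∣ 3 := by
  haveI : Fact (Nat.Prime 3) := ⟨Nat.prime_three⟩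
  obtain ⟨k, hk⟩ := IsPGroup.iff_card.1 hQ
  have h1 : Nat.card Q ∣ 24 := by
    have := card_subgroup_dvd_card Q
    rw [Nat.card_perm] at this
    exact this.trans (Nat.factorial_dvd_factorial hΦ)
  rw [hk] at h1 ⊢
  rcases k with _ | _ | k
  · simp
  · simp
  · exact absurd ((Nat.pow_dvd_pow 3 (show 2 ≤ k + 1 + 1 by omega)).trans h1) (by norm_num)

theorem emb {Φ : Set Ω} (hΦ : Nat.card Φ ≤ 4) {R : Subgroup G} (hR : IsPGroup 3 R)
    (hle : R ≤ SM G Φ) : Nat.card R ≤ 3 * Nat.card ↥(R ⊓ PK G Φ) := by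
  let φ : R →* Equiv.Perm Φ := (ψ Φ).comp (inclusion hle)
  have h1 : φ.ker = (R ⊓ PK G Φ).subgroupOf R := by
    ext x
    rw [MonoidHom.mem_ker, mem_subgroupOf, mem_inf]
    exact ψ_eq_one.trans ⟨fun h => ⟨x.2, h⟩, fun h => h.2⟩
  have h2 := card_mul_index φ.ker
  rw [index_ker, h1, H11.card_subgroupOf inf_le_left] at h2
  have h3 := Nat.le_of_dvd (by norm_num) (dvd3 hΦ φ.range (hR.of_surjective _ φ.rangeRestrict_surjective))
  rw [← h2, mul_comm]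
  exact Nat.mul_le_mul_right _ h3

theorem cube {Φ : Set Ω} (hΦ : Nat.card Φ ≤ 4) {R : Subgroup G} (hR : IsPGroup 3 R)
    (hle : R ≤ SM G Φ) {x : G} (hx : x ∈ R) : (ψ Φ ⟨x, hle hx⟩) ^ 3 = 1 := by
  let φ : R →* Equiv.Perm Φ := (ψ Φ).comp (inclusion hle)
  have h3 := dvd3 hΦ φ.range (hR.of_surjective _ φ.rangeRestrict_surjective)
  have h4 : orderOf (φ ⟨x, hx⟩) ∣ 3 := (orderOf_dvd_natCard φ.range ⟨_, rfl⟩).trans h3
  exact orderOf_dvd_iff_pow_eq_one.1 h4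

theorem pm {Φ : Set Ω} (hΦ : Nat.card Φ ≤ 4) {R : Subgroup G} (hR : IsPGroup 3 R)
    (hle : R ≤ SM G Φ) {x y : G} (hx : x ∈ R) (hy : y ∈ R) (h1 : x ∉ PK G Φ) (h2 : y ∉ PK G Φ) :
    ψ Φ ⟨y, hle hy⟩ = ψ Φ ⟨x, hle hx⟩ ∨ ψ Φ ⟨y, hle hy⟩ = (ψ Φ ⟨x, hle hx⟩)⁻¹ := by
  classical
  let φ : R →* Equiv.Perm Φ := (ψ Φ).comp (inclusion hle)
  have h3 := Nat.le_of_dvd (by norm_num) (dvd3 hΦ φ.range (hR.of_surjective _ φ.rangeRestrict_surjective))
  have c := cube hΦ hR hle hx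
  set a := ψ Φ ⟨x, hle hx⟩
  set b := ψ Φ ⟨y, hle hy⟩
  have a1 : a ≠ 1 := fun e => h1 (ψ_eq_one.1 e)
  have b1 : b ≠ 1 := fun e => h2 (ψ_eq_one.1 e)
  have ha : a ∈ φ.range := ⟨⟨x, hx⟩, rfl⟩
  have hb : b ∈ φ.range := ⟨⟨y, hy⟩, rfl⟩
  have aa : a ≠ a⁻¹ := fun e => a1 (by
    calc a = a * (a * a⁻¹) := by group
      _ = a ^ 3 := by rw [← e, pow_succ, pow_two, mul_assoc]
      _ = 1 := c)
  by_contra hcon
  push Not at hcon
  have : ({1, a, a⁻¹, b} : Set (Equiv.Perm Φ)).ncard ≤ (φ.range : Set (Equiv.Perm Φ)).ncard := by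
    apply Set.ncard_le_ncard _ (Set.toFinite _)
    intro z hz
    rcases hz with rfl | rfl | rfl | rfl
    exacts [one_mem _, ha, inv_mem ha, hb]
  rw [Set.ncard_insert_of_notMem (by simp [a1.symm, b1.symm, a1]),
    Set.ncard_insert_of_notMem (by simp [aa, hcon.1.symm]),
    Set.ncard_pair hcon.2.symm] at this
  have h5 : (φ.range : Set (Equiv.Perm Φ)).ncard = Nat.card φ.range := rfl
  omega

theorem odd_comm {L : Type*} [Group L] {v y : L} {k : ℕ} (hk : v ^ (2 * k + 1) = 1)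
    (h : v * y * v⁻¹ = y⁻¹) : y * y = 1 := by
  have h2 : Commute (v ^ 2) y := by
    have e1 : v * y = y⁻¹ * v := by rw [← h]; group
    have e2 : v * y⁻¹ = y * v := by
      have : v * y⁻¹ * v⁻¹ = y := by
        calc v * y⁻¹ * v⁻¹ = (v * y * v⁻¹)⁻¹ := by group
          _ = y := by rw [h, inv_inv]
      rw [← mul_inv_eq_iff_eq_mul, this]
    show v ^ 2 * y = y * v ^ 2
    rw [pow_two, mul_assoc, e1, ← mul_assoc, e2, mul_assoc]
  have h3 : Commute v⁻¹ y := by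
    have : v⁻¹ = (v ^ 2) ^ k := by
      rw [← pow_mul, inv_eq_iff_mul_eq_one, ← pow_succ', hk]
    rw [this]; exact h2.pow_left k
  have h4 : Commute v y := by simpa using h3.inv_left
  rw [h4.eq, mul_inv_cancel_right] at h
  rw [mul_eq_one_iff_eq_inv]; exact h

theorem nr {Φ : Set Ω} (hΦ : Nat.card Φ ≤ 4) (odd : ∀ (g : G) (β : Ω), g • β = β → Odd (orderOf g))
    {L : Type*} [Group L] (f : SM G Φ →* L) (y : L) (w n : SM G Φ) (hw : f w * y = y * f w)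
    (hn : f n * y * (f n)⁻¹ = y⁻¹) {γ : Ω} (hγ : γ ∈ Φ) (h1 : (w : G) • γ ≠ γ)
    (h2 : (w : G) • (w : G) • γ ≠ γ) : y * y = 1 := by
  classical
  obtain ⟨i, j, hij⟩ : ∃ i j : ℕ, ((n * w ^ i : SM G Φ) : G) • γ = ((w ^ j : SM G Φ) : G) • γ := by
    let A : Set Ω := {γ, (w : G) • γ, (w : G) • (w : G) • γ}
    have cA : A.ncard = 3 := by
      rw [Set.ncard_eq_three]
      exact ⟨_, _, _, h1.symm, h2.symm, fun e => h1 (smul_left_cancel _ e).symm, rfl⟩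
    have cB : ((fun β => (n : G) • β) '' A).ncard = 3 := by
      rw [Set.ncard_image_of_injective _ (MulAction.injective _), cA]
    have sA : A ⊆ Φ := by
      intro β hβ
      rcases hβ with rfl | rfl | rfl
      exacts [hγ, (w.2 _).2 hγ, (w.2 _).2 ((w.2 _).2 hγ)]
    have sB : (fun β => (n : G) • β) '' A ⊆ Φ := by
      rintro _ ⟨β, hβ, rfl⟩
      exact (n.2 _).2 (sA hβ)
    have ex : ∀ β ∈ A, ∃ i : ℕ, β = ((w ^ i : SM G Φ) : G) • γ := by
      intro β hβ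
      rcases hβ with rfl | rfl | rfl
      exacts [⟨0, by simp⟩, ⟨1, by simp⟩, ⟨2, by simp [pow_two, mul_smul]⟩]
    by_contra hcon
    push Not at hcon
    have hd : Disjoint A ((fun β => (n : G) • β) '' A) := by
      rw [Set.disjoint_left]
      rintro _ hβ ⟨β, hβ', rfl⟩
      obtain ⟨i, hi⟩ := ex _ hβ'
      obtain ⟨j, hj⟩ := ex _ hβ
      exact hcon i j (by rw [← hj, hi, coe_mul, mul_smul])
    have := Set.ncard_le_ncard (Set.union_subset sA sB) (Set.toFinite _)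
    rw [Set.ncard_union_eq hd, cA, cB] at this
    have h5 : Φ.ncard = Nat.card Φ := rfl
    omega
  let v : SM G Φ := (w ^ j)⁻¹ * (n * w ^ i)
  obtain ⟨k, hk⟩ := odd (v : G) γ (by
    simp only [v]; rw [coe_mul, mul_smul, hij, coe_inv, inv_smul_smul])
  have hv : v ^ (2 * k + 1) = 1 := Subtype.ext (by rw [← hk]; exact pow_orderOf_eq_one _)
  have cw : Commute (f w) y := hw
  refine odd_comm (v := f v) (k := k) (by rw [← map_pow, hv, map_one]) ?_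
  simp only [v, map_mul, map_inv, map_pow]
  have c1 : f w ^ i * y * (f w ^ i)⁻¹ = y := by rw [(cw.pow_left i).eq, mul_inv_cancel_right]
  have c2 : (f w ^ j)⁻¹ * y⁻¹ * (f w ^ j) = y⁻¹ := by
    rw [mul_assoc, ← (cw.pow_left j).inv_right.eq, inv_mul_cancel_left]
  calc (f w ^ j)⁻¹ * (f n * f w ^ i) * y * ((f w ^ j)⁻¹ * (f n * f w ^ i))⁻¹
      = (f w ^ j)⁻¹ * (f n * (f w ^ i * y * (f w ^ i)⁻¹) * (f n)⁻¹) * f w ^ j := by group
    _ = y⁻¹ := by rw [c1, hn, c2]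

theorem two_ne {w : G} {γ : Ω} (hw : w ^ 3 ∈ stabilizer G γ) (h1 : w • γ ≠ γ) : w • w • γ ≠ γ :=
  fun e => h1 (by
    have := mem_stabilizer_iff.1 hw
    rwa [pow_succ', pow_two, mul_smul, mul_smul, e] at this)

theorem nonreal (hfix : ∀ g : G, g ≠ 1 → Nat.card (fixedBy Ω g) ≤ 4)
    (odd : ∀ (g : G) (β : Ω), g • β = β → Odd (orderOf g)) {y w : G} (hy : orderOf y = 3)
    (hw : w ^ 3 = 1) (hc : w * y = y * w) (hm : w ∉ PK G (fixedBy Ω y)) : ¬ IsConj y y⁻¹ := by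
  intro hcj
  obtain ⟨n, hn⟩ := isConj_iff.1 hcj
  have y1 : y ≠ 1 := fun e => by simp [e] at hy
  rw [mem_PK] at hm
  push Not at hm
  obtain ⟨γ, hγ, h1⟩ := hm
  have := nr (hfix y y1) odd (SM G (fixedBy Ω y)).subtype y
    ⟨w, memSM rfl (by rw [hc, mul_inv_cancel_right])⟩ ⟨n, memSM rfl (by rw [hn, fixedBy_inv])⟩
    hc hn hγ h1 (two_ne (by rw [hw]; exact one_mem _) h1)
  have h2 := orderOf_dvd_of_pow_eq_one (show y ^ 2 = 1 by rw [pow_two, this])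
  rw [hy] at h2
  omega

theorem ge27 {T T1 S : Subgroup G} (hS : IsPGroup 3 S) (h0 : T ≠ ⊥) (h1 : T < T1) (h2 : T1 < S) :
    27 ≤ Nat.card S := by
  haveI : Fact (Nat.Prime 3) := ⟨Nat.prime_three⟩
  obtain ⟨a, ha⟩ := IsPGroup.iff_card.1 hS
  obtain ⟨b, hb⟩ := IsPGroup.iff_card.1 (hS.to_le h2.le)
  obtain ⟨c, hc⟩ := IsPGroup.iff_card.1 (hS.to_le (h1.le.trans h2.le))
  have l0 := H11.card_lt_of_lt (bot_lt_iff_ne_bot.2 h0)
  have l1 := H11.card_lt_of_lt h1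
  have l2 := H11.card_lt_of_lt h2
  rw [card_bot, hc, ← pow_zero 3] at l0
  rw [hc, hb] at l1
  rw [hb, ha] at l2
  rw [Nat.pow_lt_pow_iff_right (by norm_num)] at l0 l1 l2
  rw [ha]
  exact Nat.pow_le_pow_right (n := 3) (by norm_num) (show 3 ≤ a by omega)

theorem eq9 {T S : Subgroup G} (hS : IsPGroup 3 S) (h0 : T ≠ ⊥) (h1 : T < S)
    (h27 : ¬ 27 ≤ Nat.card S) : Nat.card S = 9 := by
  haveI : Fact (Nat.Prime 3) := ⟨Nat.prime_three⟩
  obtain ⟨a, ha⟩ := IsPGroup.iff_card.1 hS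
  obtain ⟨c, hc⟩ := IsPGroup.iff_card.1 (hS.to_le h1.le)
  have l0 := H11.card_lt_of_lt (bot_lt_iff_ne_bot.2 h0)
  have l1 := H11.card_lt_of_lt h1
  rw [card_bot, hc, ← pow_zero 3] at l0
  rw [hc, ha] at l1
  rw [Nat.pow_lt_pow_iff_right (by norm_num)] at l0 l1
  have : ¬ 3 ≤ a := fun h => h27 (ha ▸ Nat.pow_le_pow_right (n := 3) (by norm_num) h)
  rw [ha, show a = 2 by omega]; rfl

end M3

open M3 in
theorem m3 {G Ω : Type*} [Group G] [Finite G] [IsSimpleGroup G] (hna : ¬ IsMulCommutative G)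
    [MulAction G Ω] [FaithfulSMul G Ω] [Finite Ω] (htrans : MulAction.IsPretransitive G Ω)
    (hfix : ∀ g : G, g ≠ 1 → Nat.card (MulAction.fixedBy Ω g) ≤ 4) {X : Sylow 3 G → Prop}
    (P : Sylow 3 G) (a : Ω) (ho : Odd (Nat.card (stabilizer G a)))
    (h3 : 3 ∣ Nat.card (stabilizer G a))
    (pe : ∀ (Q : Sylow 3 G) (y : G), y ∈ Q → orderOf y = 3 →
      Nat.card ↥((Q : Subgroup G) ⊓ centralizer {y}) ≤ 9 → 27 ≤ Nat.card Q → ¬ IsConj y y⁻¹ → X Q) :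
    (∃ H : Subgroup G, H ≠ ⊤ ∧ 3 ∣ Nat.card H ∧
      ∀ g : G, g ∉ H → ¬ 3 ∣ Nat.card ↥(H ⊓ H.map (MulAut.conj g).toMonoidHom)) ∨
    (Nat.card P = 9 ∧ ∀ x ∈ (P : Subgroup G), x ^ 3 = 1) ∨ ∃ Q : Sylow 3 G, X Q := by
  classical
  haveI : Fact (Nat.Prime 3) := ⟨Nat.prime_three⟩
  have odd : ∀ (g : G) (β : Ω), g • β = β → Odd (orderOf g) := by
    intro g β hg
    obtain ⟨h, rfl⟩ := htrans.exists_smul_eq a β
    have hm : h⁻¹ * g * h ∈ stabilizer G a := by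
      rw [mem_stabilizer_iff, mul_smul, mul_smul, hg, inv_smul_smul]
    have h1 := orderOf_dvd_natCard _ hm
    have h2 : orderOf (h⁻¹ * g * h) = orderOf g := by
      simpa using orderOf_injective (MulAut.conj h⁻¹).toMonoidHom (MulAut.conj h⁻¹).injective g
    exact Odd.of_dvd_nat ho (h2 ▸ h1)
  have oc : ∀ g x : G, orderOf (g * x * g⁻¹) = orderOf x := fun g x => by
    simpa using orderOf_injective (MulAut.conj g).toMonoidHom (MulAut.conj g).injective x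
  have ne1 : ∀ {x : G}, orderOf x = 3 → x ≠ 1 := fun h e => by simp [e] at h
  obtain ⟨⟨t0, ht0a⟩, ht0⟩ := exists_prime_orderOf_dvd_card' (G := stabilizer G a) 3 h3
  rw [orderOf_mk] at ht0
  obtain ⟨t, ht, hmax⟩ := Set.exists_max_image {x : G | orderOf x = 3}
    (fun x => Nat.card (fixedBy Ω x)) (Set.toFinite _) ⟨t0, ht0⟩
  rw [Set.mem_setOf_eq] at ht
  set Δ := fixedBy Ω t with hΔ
  have c4 : Nat.card Δ ≤ 4 := hfix t (ne1 ht)
  have hne : Δ.Nonempty := by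
    have h1 : 0 < Nat.card (fixedBy Ω t0) := by
      haveI : Nonempty (fixedBy Ω t0) := ⟨⟨a, ht0a⟩⟩
      exact Nat.card_pos
    have h2 := hmax t0 ht0
    exact Set.nonempty_coe_sort.1 (Nat.card_pos_iff.1 (show 0 < Nat.card Δ from h1.trans_le h2)).1
  have eqc : ∀ A : Set Ω, Δ ⊆ A → Nat.card A ≤ Nat.card Δ → A = Δ := fun A h1 h2 =>
    (Set.eq_of_subset_of_ncard_le h1 h2 (Set.toFinite _)).symm
  have fx : ∀ {R : Subgroup G}, IsPGroup 3 R → ∀ x ∈ R, x ≠ 1 → x ∈ PK G Δ → fixedBy Ω x = Δ := by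
    intro R hR x hx x1 hK
    obtain ⟨y, hy, oy, -⟩ := H11.exists_orderOf_eq_centralizer_of_normalized
      (P := ⊥) (N := zpowers x) IsPGroup.of_bot (hR.to_le (zpowers_le.2 hx))
      (by simpa using x1) bot_le
    have h1 : fixedBy Ω x ⊆ fixedBy Ω y := fun β hβ =>
      (show zpowers x ≤ stabilizer G β from zpowers_le.2 hβ) hy
    have h2 : Δ ⊆ fixedBy Ω x := hK
    have h3 := eqc _ (h2.trans h1) (hmax y oy)
    exact Set.Subset.antisymm (h3 ▸ h1) h2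
  have pg3 : ∀ {x : G}, orderOf x = 3 → IsPGroup 3 (zpowers x) := fun h =>
    IsPGroup.of_card (n := 1) (by rw [Nat.card_zpowers, h, pow_one])
  have tK : t ∈ PK G Δ := fun β hβ => hβ
  have tM : t ∈ SM G Δ := memSM rfl (by rw [mul_inv_cancel_right])
  by_cases hA : ∀ x ∈ SM G Δ, orderOf x = 3 → x ∈ PK G Δ
  · left
    refine ⟨SM G Δ, fun htop => ?_, ht ▸ orderOf_dvd_natCard _ tM, fun g hg hd => hg ?_⟩
    · apply ne1 ht
      apply FaithfulSMul.eq_of_smul_eq_smul (α := Ω)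
      intro β
      obtain ⟨δ, hδ⟩ := hne
      obtain ⟨h, rfl⟩ := htrans.exists_smul_eq δ β
      rw [one_smul]
      exact ((show h ∈ SM G Δ from htop ▸ mem_top h) δ).2 hδ
    · obtain ⟨⟨x, hx0⟩, ox⟩ := exists_prime_orderOf_dvd_card' 3 hd
      rw [orderOf_mk] at ox
      obtain ⟨hx1, hx2⟩ := mem_inf.1 hx0
      have hx3 : g⁻¹ * x * g ∈ SM G Δ := H11.mem_cj.1 hx2
      have o3 : orderOf (g⁻¹ * x * g) = 3 := by simpa [ox] using oc g⁻¹ x
      refine memSM (fx (pg3 o3) _ (mem_zpowers _) (ne1 o3) (hA _ hx3 o3)) ?_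
      rw [show g * (g⁻¹ * x * g) * g⁻¹ = x by group]
      exact fx (pg3 ox) _ (mem_zpowers _) (ne1 ox) (hA _ hx1 ox)
  right
  push Not at hA
  obtain ⟨w, hwM, ow, hwK⟩ := hA
  obtain ⟨T1, hT1, hwT⟩ := H11.exists_isSylIn_le (pg3 ow) (zpowers_le.2 hwM)
  have hwT1 : w ∈ T1 := hwT (mem_zpowers _)
  obtain ⟨S0, hS0⟩ := hT1.pg.exists_le_sylow
  have hinf : ∀ g ∈ (S0 : Subgroup G), g ∈ SM G Δ → g ∈ T1 := fun g h1 h2 => by
    have := hT1.eq (Q := (S0 : Subgroup G) ⊓ SM G Δ) (S0.isPGroup'.to_le inf_le_left)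
      (le_inf hS0 hT1.le) inf_le_right
    exact this ▸ mem_inf.2 ⟨h1, h2⟩
  have hT0 : T1 ⊓ PK G Δ ≠ ⊥ := by
    obtain ⟨m, hm, hmt⟩ := hT1.exists_conj_mem (k := 1) (x := t) (by rw [ht, pow_one]) tM
    intro e
    have : m * t * m⁻¹ ∈ T1 ⊓ PK G Δ := ⟨hmt, PK_conj hm tK⟩
    rw [e, mem_bot] at this
    exact ne1 ((oc m t).trans ht) this
  have hTlt : T1 ⊓ PK G Δ < T1 := lt_of_le_of_ne inf_le_left fun e => hwK (e.ge hwT1).2
  obtain ⟨z, hz, oz, hzc⟩ := H11.exists_orderOf_eq_centralizer_of_normalized (P := T1)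
    (N := T1 ⊓ PK G Δ) hT1.pg (hT1.pg.to_le inf_le_left) hT0 (fun g hg =>
      H11.mem_normalizer_of_forall fun x hx =>
        mem_inf.2 ⟨mul_mem (mul_mem hg (mem_inf.1 hx).1) (inv_mem hg), PK_conj (hT1.le hg) hx.2⟩)
  have fz : fixedBy Ω z = Δ := fx hT1.pg z hz.1 (ne1 oz) hz.2
  have w3 : w ^ 3 = 1 := ow ▸ pow_orderOf_eq_one w
  have z3 : z ^ 3 = 1 := oz ▸ pow_orderOf_eq_one z
  rcases lt_or_eq_of_le hS0 with hlt | heq
  · right
    obtain ⟨g, hg, hgT, hgN⟩ := H11.exists_mem_normalizer_of_lt S0.isPGroup' hlt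
    have l1 : cj g (T1 ⊓ PK G Δ) ≤ T1 := H11.cj_le_iff.2 fun x hx =>
      H11.conj_mem_of_mem_normalizer hgN hx.1
    have e1 := emb c4 (hT1.pg.to_le l1) (l1.trans hT1.le)
    have e2 : cj g (T1 ⊓ PK G Δ) ⊓ PK G Δ = ⊥ := by
      rw [eq_bot_iff]
      rintro _ ⟨⟨x, hx, rfl⟩, h2⟩
      by_contra hn
      have x1 : x ≠ 1 := fun e => hn (by simp [e])
      exact hgT (hinf g hg (memSM (fx hT1.pg x hx.1 x1 hx.2)
        (fx hT1.pg _ (l1 ⟨x, hx, rfl⟩) hn h2)))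
    rw [e2, card_bot, H11.card_cj] at e1
    have e3 := emb c4 hT1.pg hT1.le
    refine ⟨S0, pe S0 z (hS0 hz.1) oz ?_ (ge27 S0.isPGroup' hT0 hTlt hlt)
      (nonreal hfix odd oz w3 (hzc w hwT1) (fz ▸ hwK))⟩
    have : (S0 : Subgroup G) ⊓ centralizer {z} ≤ T1 := fun x hx =>
      hinf x hx.1 (memSM fz (by rw [H11.mem_cent1.1 hx.2, mul_inv_cancel_right, fz]))
    have := card_le_of_le this
    omega
  subst heq
  have cb : ∀ x ∈ (S0 : Subgroup G), x ^ 3 ∈ PK G Δ := fun x hx =>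
    (ψ_eq_one (g := ⟨x, hT1.le hx⟩ ^ 3)).1 (by rw [map_pow]; exact cube c4 hT1.pg hT1.le hx)
  by_cases hB : ∃ x ∈ (S0 : Subgroup G), x ∈ PK G Δ ∧ ∃ g : G, g * x * g⁻¹ ∈ (S0 : Subgroup G) ∧
      g * x * g⁻¹ ∉ PK G Δ
  · obtain ⟨x, hx, hxK, g, hy, hyK⟩ := hB
    have x1 : x ≠ 1 := fun e => hyK (by simp [e])
    have gM : g ∉ SM G Δ := fun h => hyK (PK_conj h hxK)
    have x3 : x ^ 3 = 1 := by
      by_contra hn
      refine gM (memSM (fx hT1.pg _ (pow_mem hx 3) hn (pow_mem hxK 3)) ?_)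
      rw [← conj_pow]
      exact fx hT1.pg _ (pow_mem hy 3) (by rw [conj_pow]; simpa using hn) (cb _ hy)
    set y := g * x * g⁻¹ with hyd
    have oy : orderOf y = 3 := (oc g x).trans (orderOf_eq_prime x3 x1)
    have cy : Nat.card (fixedBy Ω y) = Nat.card Δ := by
      rw [hyd, card_fix, fx hT1.pg x hx x1 hxK]
    have mv : ∀ c ∈ (S0 : Subgroup G), c ∈ PK G Δ → c ∈ PK G (fixedBy Ω y) → c = 1 := by
      intro c h1 h2 h3
      by_contra hn
      have h4 : fixedBy Ω y ⊆ Δ := fx hT1.pg c h1 hn h2 ▸ h3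
      have h5 := Set.eq_of_subset_of_ncard_le h4 cy.ge (Set.toFinite _)
      exact hyK fun β hβ => (h5 ▸ hβ : β ∈ fixedBy Ω y)
    by_cases h27 : 27 ≤ Nat.card S0
    · right
      refine ⟨S0, pe S0 y hy oy ?_ h27 (nonreal hfix odd oy z3 (hzc y hy).symm
        fun h => ne1 oz (mv z hz.1 hz.2 h))⟩
      have p1 : IsPGroup 3 ↥((S0 : Subgroup G) ⊓ centralizer {y}) := hT1.pg.to_le inf_le_left
      have e1 := emb c4 p1 (inf_le_left.trans hT1.le)
      have e2 := emb (hfix y (ne1 oy)) (R := (S0 : Subgroup G) ⊓ centralizer {y} ⊓ PK G Δ)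
        (p1.to_le inf_le_left) fun c hc =>
          memSM rfl (by rw [H11.mem_cent1.1 hc.1.2, mul_inv_cancel_right])
      have e3 : (S0 : Subgroup G) ⊓ centralizer {y} ⊓ PK G Δ ⊓ PK G (fixedBy Ω y) = ⊥ :=
        eq_bot_iff.2 fun c hc => mv c hc.1.1.1 hc.1.2 hc.2
      rw [e3, card_bot] at e2
      omega
    · left
      have c9 := eq9 hT1.pg hT0 hTlt h27
      have ex : ∀ u ∈ (S0 : Subgroup G), u ^ 3 = 1 := by
        intro u hu
        by_contra hn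
        have d1 : orderOf u ∣ 3 ^ 2 := by
          have := orderOf_dvd_natCard _ hu
          rwa [c9] at this
        obtain ⟨i, hi, hu9⟩ := (Nat.dvd_prime_pow Nat.prime_three).1 d1
        have i2 : i = 2 := by
          by_contra hi2
          exact hn (orderOf_dvd_iff_pow_eq_one.1
            (hu9 ▸ (Nat.pow_dvd_pow 3 (show i ≤ 1 by omega)).trans (by norm_num)))
        subst i2
        have e : zpowers u = S0 := eq_of_le_of_card_ge (zpowers_le.2 hu)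
          (by rw [Nat.card_zpowers, hu9, c9]; norm_num)
        obtain ⟨k, hk⟩ := mem_zpowers_iff.1 (e ▸ hy : y ∈ zpowers u)
        have : u ^ (k * 3) = 1 := by
          rw [zpow_mul, hk, zpow_ofNat, ← oy, pow_orderOf_eq_one]
        rw [← orderOf_dvd_iff_zpow_eq_one, hu9] at this
        obtain ⟨l, rfl⟩ : (3 : ℤ) ∣ k := by push_cast at this; omega
        refine hyK ?_
        rw [← hk, zpow_mul, zpow_ofNat]
        exact zpow_mem (cb u hu) l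
      obtain ⟨h, -, hh⟩ := (H11.isSylIn_top S0).exists_cj_eq (H11.isSylIn_top P)
      refine ⟨by rw [← c9, ← H11.card_cj h (S0 : Subgroup G), hh], fun u hu => ?_⟩
      rw [← hh] at hu
      obtain ⟨v, hv, rfl⟩ := hu
      rw [← map_pow, ex v hv, map_one]
  exfalso
  push Not at hB
  have hperf : commutator G = ⊤ := by
    rcases IsSimpleGroup.eq_bot_or_eq_top_of_normal (commutator G) inferInstance with e | e
    · exact absurd ⟨⟨fun x y => commutatorElement_eq_one_iff_mul_comm.1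
        (mem_bot.1 (e ▸ commutator_mem_commutator (mem_top x) (mem_top y)))⟩⟩ hna
    · exact e
  have hf := Subgroup.commutator_inf_eq_focalSubgroup S0
  rw [hperf, top_inf_eq] at hf
  refine hwK ((show (S0 : Subgroup G).focalSubgroup ≤ PK G Δ from ?_) (hf ▸ hwT1))
  rw [focalSubgroup_def, closure_le]
  rintro _ ⟨h1, x, hx, u, rfl⟩
  have hy : x⁻¹ ∈ (S0 : Subgroup G) := inv_mem hx
  have e0 : ⁅x, u⁆ = (x⁻¹)⁻¹ * (u * x⁻¹ * u⁻¹) := by rw [commutatorElement_def]; group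
  rw [e0] at h1 ⊢
  generalize x⁻¹ = y at hy h1
  have hy' : u * y * u⁻¹ ∈ (S0 : Subgroup G) := (mul_mem_cancel_left (inv_mem hy)).1 h1
  show y⁻¹ * (u * y * u⁻¹) ∈ PK G Δ
  by_cases hyK : y ∈ PK G Δ
  · exact mul_mem (inv_mem hyK) (hB y hy hyK u hy')
  have hyK' : u * y * u⁻¹ ∉ PK G Δ := fun h => hyK (by
    have := hB _ hy' h u⁻¹ (by simpa [mul_assoc] using hy)
    simpa [mul_assoc] using this)
  obtain ⟨m, hm, hmy⟩ : ∃ m ∈ SM G Δ, m * y * m⁻¹ = u * y * u⁻¹ := by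
    by_cases y3 : y ^ 3 = 1
    · have zc : zpowers z ≤ centralizer {u * y * u⁻¹} :=
        zpowers_le.2 (H11.mem_cent1.2 (hzc _ hy').symm)
      obtain ⟨R, hR, hzR⟩ := H11.exists_isSylIn_le (pg3 oz) zc
      obtain ⟨c, hc, hcR⟩ := hR.exists_conj_mem (k := 1) (x := u * z * u⁻¹)
        (by rw [oc, oz, pow_one]) (H11.mem_cent1.2 (by
          calc u * z * u⁻¹ * (u * y * u⁻¹) = u * (z * y) * u⁻¹ := by group
            _ = _ := by rw [← hzc y hy]; group))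
      obtain ⟨h, -, hh⟩ := (H11.isSylIn_top S0).exists_cj_le hR.pg le_top
      have a1 : h * z * h⁻¹ ∈ (S0 : Subgroup G) := H11.cj_le_iff.1 hh z (hzR (mem_zpowers _))
      have a2 : (h * c * u) * z * (h * c * u)⁻¹ ∈ (S0 : Subgroup G) := by
        have := H11.cj_le_iff.1 hh _ hcR
        rwa [show h * (c * (u * z * u⁻¹) * c⁻¹) * h⁻¹ = (h * c * u) * z * (h * c * u)⁻¹ by group]
          at this
      have b1 := memSM fz (fx hT1.pg _ a1 (ne1 ((oc _ _).trans oz)) (hB z hz.1 hz.2 _ a1))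
      have b2 := memSM fz (fx hT1.pg _ a2 (ne1 ((oc _ _).trans oz)) (hB z hz.1 hz.2 _ a2))
      refine ⟨c * u, by simpa [mul_assoc] using mul_mem (inv_mem b1) b2, ?_⟩
      calc c * u * y * (c * u)⁻¹ = c * (u * y * u⁻¹) * c⁻¹ := by group
        _ = _ := by rw [H11.mem_cent1.1 hc, mul_inv_cancel_right]
    · refine ⟨u, memSM (fx hT1.pg _ (pow_mem hy 3) y3 (cb y hy)) ?_, rfl⟩
      rw [← conj_pow]
      exact fx hT1.pg _ (pow_mem hy' 3) (by rw [conj_pow]; simpa using y3) (cb _ hy')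
  rcases pm c4 hT1.pg hT1.le hy hy' hyK hyK' with e | e
  · exact (ψ_eq_one (g := (⟨y, hT1.le hy⟩ : SM G Δ)⁻¹ * ⟨_, hT1.le hy'⟩)).1
      (by rw [map_mul, map_inv, e, inv_mul_cancel])
  · exfalso
    have hyK2 := hyK
    rw [mem_PK] at hyK2
    push Not at hyK2
    obtain ⟨γ, hγ, g1⟩ := hyK2
    have := nr c4 odd (ψ Δ) (ψ Δ ⟨y, hT1.le hy⟩) ⟨y, hT1.le hy⟩ ⟨m, hm⟩ rfl (by
      rw [← e, ← map_inv, ← map_mul, ← map_mul]
      exact congrArg _ (Subtype.ext hmy)) hγ g1 (two_ne (cb y hy γ hγ) g1)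
    have c3 := cube c4 hT1.pg hT1.le hy
    rw [pow_succ, pow_two, this, one_mul] at c3
    exact hyK (ψ_eq_one.1 c3)

end Cfsg.Agent.FX
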