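import Mathlib

set_option autoImplicit false

namespace Cfsg.Agent.FX

open Subgroup MulAction

namespace P16

variable {G Ω : Type*} [Group G] [MulAction G Ω]

theorem ex1 {R : Subgroup G} (cR : Nat.card R = 4) : ∃ r ∈ R, r ≠ 1 := by
  by_contra h
  push Not at h
  have : R = ⊥ := (eq_bot_iff_forall _).2 h
  subst this
  simp at cR

theorem st {g r : G} (h : g * r = r * g) {a : Ω} (ha : a ∈ fixedBy Ω r) : g • a ∈ fixedBy Ω r := by
  rw [mem_fixedBy] at *
  rw [← mul_smul, ← h, mul_smul, ha]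

theorem dec {R U : Subgroup G} (hc : ∀ r ∈ R, ∀ u ∈ U, r * u = u * r) {e : G} (he : e ∈ R ⊔ U) :
    ∃ r ∈ R, ∃ u ∈ U, r * u = e := by
  let E : Subgroup G :=
    { carrier := {e | ∃ r ∈ R, ∃ u ∈ U, r * u = e}
      mul_mem' := by
        rintro _ _ ⟨r, hr, u, hu, rfl⟩ ⟨r', hr', u', hu', rfl⟩
        refine ⟨r * r', mul_mem hr hr', u * u', mul_mem hu hu', ?_⟩
        rw [mul_assoc, ← mul_assoc r', hc r' hr' u hu]; group
      one_mem' := ⟨1, one_mem _, 1, one_mem _, mul_one _⟩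
      inv_mem' := by
        rintro _ ⟨r, hr, u, hu, rfl⟩
        exact ⟨r⁻¹, inv_mem hr, u⁻¹, inv_mem hu, by rw [hc r hr u hu, mul_inv_rev]⟩ }
  have : R ⊔ U ≤ E := sup_le (fun r hr => ⟨r, hr, 1, one_mem _, mul_one _⟩)
    (fun u hu => ⟨1, one_mem _, u, hu, one_mul _⟩)
  exact this he

theorem tr [Finite Ω] {R U : Subgroup G} {A B : Set Ω} (hA : Nat.card A = 4) (hB : Nat.card B = 4)
    (hAB : A ≠ B) (cR : Nat.card R = 4) (cU : Nat.card U = 4)
    (hc : ∀ r ∈ R, ∀ u ∈ U, r * u = u * r) (fR : ∀ r ∈ R, r ≠ 1 → fixedBy Ω r = A)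
    (fU : ∀ u ∈ U, u ≠ 1 → fixedBy Ω u = B) :
    (∀ a ∈ A, a ∉ B) ∧ ∀ a ∈ A, ∀ a' ∈ A, ∃ u ∈ U, u • a = a' := by
  obtain ⟨r, hr, r1⟩ := ex1 cR
  have hs : ∀ u ∈ U, ∀ a ∈ A, u • a ∈ A := fun u hu a ha => by
    rw [← fR r hr r1] at *
    exact st (hc r hr u hu).symm ha
  obtain ⟨α, hα, hβ⟩ : ∃ α ∈ A, α ∉ B := by
    by_contra h
    push Not at h
    refine hAB (Set.eq_of_subset_of_ncard_le h ?_ (Set.toFinite _))
    rw [← Nat.card_coe_set_eq, ← Nat.card_coe_set_eq, hA, hB]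
  have inj : Function.Injective (fun u : U => (⟨(u : G) • α, hs u u.2 α hα⟩ : A)) := by
    intro u v h
    have h' : (u : G) • α = (v : G) • α := congrArg Subtype.val h
    by_contra ne
    have h1 : (v : G)⁻¹ * u ≠ 1 := fun e => ne (Subtype.ext (inv_mul_eq_one.1 e).symm)
    apply hβ
    rw [← fU _ (mul_mem (inv_mem v.2) u.2) h1, mem_fixedBy, mul_smul, h', inv_smul_smul]
  have sur := (inj.bijective_of_nat_card_le (by rw [hA, cU])).2
  have s2 : ∀ a ∈ A, ∃ u ∈ U, u • α = a := fun a ha => by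
    obtain ⟨u, hu⟩ := sur ⟨a, ha⟩
    exact ⟨u, u.2, congrArg Subtype.val hu⟩
  refine ⟨fun a ha hb => ?_, fun a ha a' ha' => ?_⟩
  · obtain ⟨u, hu, rfl⟩ := s2 a ha
    by_cases u1 : u = 1
    · subst u1; exact hβ (by simpa using hb)
    · have := hb
      rw [← fU u hu u1, mem_fixedBy, smul_left_cancel_iff] at this
      exact hβ (this ▸ hb)
  · obtain ⟨u, hu, rfl⟩ := s2 a ha
    obtain ⟨v, hv, rfl⟩ := s2 a' ha'
    exact ⟨v * u⁻¹, mul_mem hv (inv_mem hu), by rw [mul_smul, inv_smul_smul]⟩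

theorem two {U : Subgroup G} (cU : Nat.card U = 4) {y : G} (h : ¬ ∀ u ∈ U, y * u = u * y) :
    Nat.card ↥(U ⊓ centralizer {y}) ≤ 2 := by
  haveI : Finite U := Nat.finite_of_card_ne_zero (by omega)
  have d := card_dvd_of_le (inf_le_left : U ⊓ centralizer {y} ≤ U)
  rw [cU] at d
  have l := Nat.le_of_dvd (by norm_num) d
  by_contra hl
  have e : Nat.card ↥(U ⊓ centralizer {y}) = 4 := by
    generalize Nat.card ↥(U ⊓ centralizer {y}) = n at *
    interval_cases n <;> omega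
  have := eq_of_le_of_card_ge (inf_le_left : U ⊓ centralizer {y} ≤ U) (by omega)
  refine h fun u hu => ?_
  rw [← this] at hu
  exact (mem_centralizer_singleton_iff.1 hu.2).symm

/-- a non-trivial element fixing a point of `A` and a point off `A` does not centralise `U` -/
theorem five [Finite Ω] (hfix : ∀ g : G, g ≠ 1 → Nat.card (fixedBy Ω g) ≤ 4) {U : Subgroup G}
    {A : Set Ω} (hA : Nat.card A = 4) (t : ∀ a ∈ A, ∀ a' ∈ A, ∃ u ∈ U, u • a = a') {y : G}
    (y1 : y ≠ 1) {α β : Ω} (hα : α ∈ A) (hβ : β ∉ A) (ya : y • α = α) (yb : y • β = β) :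
    ¬ ∀ u ∈ U, y * u = u * y := by
  intro h
  have s : insert β A ⊆ fixedBy Ω y := by
    rintro a (rfl | ha)
    · exact yb
    · obtain ⟨u, hu, rfl⟩ := t α hα a ha
      exact st (h u hu).symm ya
  have := Set.ncard_le_ncard s (Set.toFinite _)
  rw [Set.ncard_insert_of_notMem hβ (Set.toFinite _), ← Nat.card_coe_set_eq,
    ← Nat.card_coe_set_eq, hA] at this
  have := hfix y y1
  omega

end P16

open P16

theorem p16 {G Ω : Type*} [Group G] [MulAction G Ω] [Finite Ω]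
    (hfix : ∀ g : G, g ≠ 1 → Nat.card (MulAction.fixedBy Ω g) ≤ 4)
    (R U : Subgroup G) (A B : Set Ω) (hA : Nat.card A = 4) (hB : Nat.card B = 4) (hAB : A ≠ B)
    (cR : Nat.card R = 4) (cU : Nat.card U = 4) (eR : ∀ r ∈ R, r * r = 1) (eU : ∀ u ∈ U, u * u = 1)
    (hc : ∀ r ∈ R, ∀ u ∈ U, r * u = u * r) (fR : ∀ r ∈ R, r ≠ 1 → MulAction.fixedBy Ω r = A)
    (fU : ∀ u ∈ U, u ≠ 1 → MulAction.fixedBy Ω u = B) :
    (∀ e ∈ R ⊔ U, e * e = 1) ∧ Nat.card ↥(R ⊔ U) = 16 ∧
      ∀ x ∈ normalizer ((R ⊔ U : Subgroup G) : Set G), x ∉ R ⊔ U →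
        Nat.card ↥((R ⊔ U) ⊓ centralizer {x}) ≤ 4 := by
  have hc' : ∀ u ∈ U, ∀ r ∈ R, u * r = r * u := fun u hu r hr => (hc r hr u hu).symm
  obtain ⟨dA, tA⟩ := tr hA hB hAB cR cU hc fR fU
  obtain ⟨dB, tB⟩ := tr hB hA hAB.symm cU cR hc' fU fR
  haveI : Finite U := Nat.finite_of_card_ne_zero (by omega)
  haveI : Finite R := Nat.finite_of_card_ne_zero (by omega)
  have i0 : ∀ r ∈ R, r ∈ U → r = 1 := fun r hr hu => by
    by_contra h
    exact hAB ((fR r hr h).symm.trans (fU r hu h))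
  have un : ∀ r ∈ R, ∀ u ∈ U, ∀ r' ∈ R, ∀ u' ∈ U, r * u = r' * u' → r = r' ∧ u = u' := by
    intro r hr u hu r' hr' u' hu' e
    have e2 : r'⁻¹ * r = u' * u⁻¹ := by
      rw [inv_mul_eq_iff_eq_mul, ← mul_assoc, ← e]; group
    have := i0 _ (mul_mem (inv_mem hr') hr) (e2 ▸ mul_mem hu' (inv_mem hu))
    have e3 : r = r' := (inv_mul_eq_one.1 this).symm
    subst e3
    exact ⟨rfl, mul_left_cancel e⟩
  have cm : ∀ {H : Subgroup G}, (∀ r ∈ H, r * r = 1) → ∀ a ∈ H, ∀ b ∈ H, a * b = b * a := by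
    intro H eH a ha b hb
    have h1 := eH _ (mul_mem ha hb)
    have h2 := eH a ha
    have h3 := eH b hb
    calc a * b = a * (a * b * (a * b)) * b := by rw [h1, mul_one]
      _ = (a * a) * b * a * (b * b) := by group
      _ = b * a := by rw [h2, h3]; group
  have fa : ∀ r ∈ R, ∀ a ∈ A, r • a = a := fun r hr a ha => by
    by_cases h : r = 1
    · rw [h, one_smul]
    · rw [← fR r hr h] at ha; exact ha
  have fb : ∀ u ∈ U, ∀ b ∈ B, u • b = b := fun r hr a ha => by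
    by_cases h : r = 1
    · rw [h, one_smul]
    · rw [← fU r hr h] at ha; exact ha
  refine ⟨fun e he => ?_, ?_, fun x hx xE => ?_⟩
  · obtain ⟨r, hr, u, hu, rfl⟩ := dec hc he
    rw [mul_assoc, ← mul_assoc u, hc' u hu r hr, mul_assoc, eU u hu, mul_one, eR r hr]
  · have : Function.Bijective (fun p : R × U =>
        (⟨p.1 * p.2, mul_mem (mem_sup_left p.1.2) (mem_sup_right p.2.2)⟩ : ↥(R ⊔ U))) := by
      constructor
      · rintro ⟨r, u⟩ ⟨r', u'⟩ h
        obtain ⟨h1, h2⟩ := un _ r.2 _ u.2 _ r'.2 _ u'.2 (congrArg Subtype.val h)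
        exact Prod.ext (Subtype.ext h1) (Subtype.ext h2)
      · rintro ⟨e, he⟩
        obtain ⟨r, hr, u, hu, rfl⟩ := dec hc he
        exact ⟨(⟨r, hr⟩, ⟨u, hu⟩), rfl⟩
    rw [← Nat.card_eq_of_bijective _ this, Nat.card_prod, cR, cU]
  · by_contra big
    -- components of the elements of `C`
    have hd : ∀ e : ↥((R ⊔ U) ⊓ centralizer {x}), ∃ p : R × U, (p.1 : G) * p.2 = e := fun e => by
      obtain ⟨r, hr, u, hu, h⟩ := dec hc e.2.1
      exact ⟨(⟨r, hr⟩, ⟨u, hu⟩), h⟩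
    choose c hcd using hd
    have xc : ∀ e : ↥((R ⊔ U) ⊓ centralizer {x}), x * e = e * x := fun e =>
      (mem_centralizer_singleton_iff.1 e.2.2).symm
    obtain ⟨r0, hr0, r1, xr⟩ : ∃ r ∈ R, r ≠ 1 ∧ x * r = r * x := by
      by_contra h
      push Not at h
      have : Function.Injective fun e => (c e).2 := by
        intro e e' he
        have he' : ((c e).2 : G) = (c e').2 := congrArg Subtype.val he
        have m : (e : G) * (e' : G)⁻¹ = (c e).1 * ((c e').1 : G)⁻¹ := by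
          rw [← hcd e, ← hcd e', he']; group
        by_contra ne
        refine h _ (mul_mem (c e).1.2 (inv_mem (c e').1.2)) ?_ ?_
        · rw [← m]; exact fun o => ne (Subtype.ext (mul_inv_eq_one.1 o))
        · rw [← m]; exact xc (e * e'⁻¹)
      have := Nat.card_le_card_of_injective _ this
      omega
    obtain ⟨u0, hu0, u1, xu⟩ : ∃ u ∈ U, u ≠ 1 ∧ x * u = u * x := by
      by_contra h
      push Not at h
      have : Function.Injective fun e => (c e).1 := by
        intro e e' he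
        have he' : ((c e).1 : G) = (c e').1 := congrArg Subtype.val he
        have m : (e' : G)⁻¹ * (e : G) = ((c e').2 : G)⁻¹ * (c e).2 := by
          rw [← hcd e, ← hcd e', he']; group
        by_contra ne
        refine h _ (mul_mem (inv_mem (c e').2.2) (c e).2.2) ?_ ?_
        · rw [← m]; exact fun o => ne (Subtype.ext (inv_mul_eq_one.1 o).symm)
        · rw [← m]; exact xc (e'⁻¹ * e)
      have := Nat.card_le_card_of_injective _ this
      omega
    have xA : ∀ g, g * r0 = r0 * g → ∀ a ∈ A, g • a ∈ A := fun g hg a ha => by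
      rw [← fR r0 hr0 r1] at *; exact st hg ha
    have xB : ∀ g, g * u0 = u0 * g → ∀ a ∈ B, g • a ∈ B := fun g hg a ha => by
      rw [← fU u0 hu0 u1] at *; exact st hg ha
    obtain ⟨α, hα⟩ : A.Nonempty := by
      rw [← Set.nonempty_coe_sort]; exact (Nat.card_pos_iff.1 (by omega)).1
    obtain ⟨β, hβ⟩ : B.Nonempty := by
      rw [← Set.nonempty_coe_sort]; exact (Nat.card_pos_iff.1 (by omega)).1
    obtain ⟨u, hu, e1⟩ := tA _ (xA x xr α hα) α hα
    obtain ⟨r, hr, e2⟩ := tB _ (xB x xu β hβ) β hβ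
    have y1 : r * u * x ≠ 1 := fun h => xE (by
      rw [← mul_eq_one_iff_inv_eq.1 h]
      exact inv_mem (mul_mem (mem_sup_left hr) (mem_sup_right hu)))
    have ya : (r * u * x) • α = α := by rw [mul_smul, mul_smul, e1, fa r hr α hα]
    have yb : (r * u * x) • β = β := by
      rw [mul_smul, mul_smul, fb u hu _ (xB x xu β hβ), e2]
    have nU : ¬ ∀ v ∈ U, x * v = v * x := fun h =>
      five hfix hA tA y1 hα (dB β hβ) ya yb fun v hv => by
        rw [mul_assoc, h v hv, ← mul_assoc, mul_assoc r, cm eU u hu v hv, ← mul_assoc,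
          hc r hr v hv]; group
    have nR : ¬ ∀ v ∈ R, x * v = v * x := fun h =>
      five hfix hB tB y1 hβ (dA α hα) yb ya fun v hv => by
        rw [mul_assoc, h v hv, ← mul_assoc, mul_assoc r, hc' u hu v hv, ← mul_assoc,
          cm eR r hr v hv]; group
    have cj : ∀ e ∈ R ⊔ U, x * e * x⁻¹ ∈ R ⊔ U := fun e he => (mem_normalizer_iff.1 hx e).1 he
    have xi : ∀ g : G, x * g = g * x → x⁻¹ * g = g * x⁻¹ := fun g h => by
      rw [inv_mul_eq_iff_eq_mul, ← mul_assoc, h]; group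
    have jR : ∀ v ∈ R, x * v * x⁻¹ ∈ R := fun v hv => by
      obtain ⟨r', hr', u', hu', e⟩ := dec hc (cj v (mem_sup_left hv))
      have : (r' * u') • α = α := by
        rw [e, mul_smul, mul_smul, fa v hv _ (xA _ (xi _ xr) α hα), smul_inv_smul]
      rw [hc r' hr' u' hu', mul_smul, fa r' hr' α hα] at this
      by_cases o : u' = 1
      · rw [← e, o, mul_one]; exact hr'
      · exact absurd (fU u' hu' o ▸ (this : α ∈ fixedBy Ω u')) (dA α hα)
    have jU : ∀ v ∈ U, x * v * x⁻¹ ∈ U := fun v hv => by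
      obtain ⟨r', hr', u', hu', e⟩ := dec hc (cj v (mem_sup_right hv))
      have : (r' * u') • β = β := by
        rw [e, mul_smul, mul_smul, fb v hv _ (xB _ (xi _ xu) β hβ), smul_inv_smul]
      rw [mul_smul, fb u' hu' β hβ] at this
      by_cases o : r' = 1
      · rw [← e, o, one_mul]; exact hu'
      · exact absurd (fR r' hr' o ▸ (this : β ∈ fixedBy Ω r')) (dB β hβ)
    have sp : ∀ e, ((c e).1 : G) ∈ R ⊓ centralizer {x} ∧ ((c e).2 : G) ∈ U ⊓ centralizer {x} := by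
      intro e
      obtain ⟨h1, h2⟩ := un _ (jR _ (c e).1.2) _ (jU _ (c e).2.2) _ (c e).1.2 _ (c e).2.2 (by
        calc _ = x * ((c e).1 * (c e).2) * x⁻¹ := by group
          _ = _ := by rw [hcd e, xc e]; group)
      exact ⟨⟨(c e).1.2, mem_centralizer_singleton_iff.2 (mul_inv_eq_iff_eq_mul.1 h1).symm⟩,
        ⟨(c e).2.2, mem_centralizer_singleton_iff.2 (mul_inv_eq_iff_eq_mul.1 h2).symm⟩⟩
    haveI : Finite ↥(R ⊓ centralizer {x}) := Finite.of_injective _ (inclusion_injective inf_le_left)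
    haveI : Finite ↥(U ⊓ centralizer {x}) := Finite.of_injective _ (inclusion_injective inf_le_left)
    have inj : Function.Injective fun e => ((⟨_, (sp e).1⟩, ⟨_, (sp e).2⟩) :
        ↥(R ⊓ centralizer {x}) × ↥(U ⊓ centralizer {x})) := by
      intro e e' h
      have h1 : ((c e).1 : G) = (c e').1 := congrArg (fun p => (p.1 : G)) h
      have h2 : ((c e).2 : G) = (c e').2 := congrArg (fun p => (p.2 : G)) h
      apply Subtype.ext
      rw [← hcd e, ← hcd e', h1, h2]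
    have l := Nat.card_le_card_of_injective _ inj
    rw [Nat.card_prod] at l
    have := Nat.mul_le_mul (two cR nR) (two cU nU)
    omega

end Cfsg.Agent.FX
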