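import Cfsg.Agent.H26.SRank2
import Cfsg.Agent.H11.Syl

/-!
# Fixity four: pointwise and setwise stabilisers
-/

set_option autoImplicit false

namespace Cfsg.Agent.FX

open Subgroup MulAction

variable (G : Type*) {Ω : Type*} [Group G] [MulAction G Ω]

/-- pointwise stabiliser -/
def KK (A : Set Ω) : Subgroup G where
  carrier := {g | ∀ x ∈ A, g • x = x}
  mul_mem' := fun {a b} ha hb x hx => by rw [mul_smul, hb x hx, ha x hx]
  one_mem' := fun x _ => one_smul _ _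
  inv_mem' := fun {a} ha x hx => by rw [inv_smul_eq_iff, ha x hx]

/-- setwise stabiliser -/
def MM (A : Set Ω) : Subgroup G where
  carrier := {g | ∀ x, g • x ∈ A ↔ x ∈ A}
  mul_mem' := fun {a b} ha hb x => by rw [mul_smul, ha, hb]
  one_mem' := fun x => by rw [one_smul]
  inv_mem' := fun {a} ha x => by rw [← ha, smul_inv_smul]

variable {G}

theorem mem_KK {A : Set Ω} {g : G} : g ∈ KK G A ↔ ∀ x ∈ A, g • x = x := Iff.rfl

theorem mem_MM {A : Set Ω} {g : G} : g ∈ MM G A ↔ ∀ x, g • x ∈ A ↔ x ∈ A := Iff.rfl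

theorem KK_fix (g : G) : g ∈ KK G (fixedBy Ω g) := fun _ hx => hx

theorem conj_KK {A : Set Ω} {m k : G} (hm : m ∈ MM G A) (hk : k ∈ KK G A) :
    m * k * m⁻¹ ∈ KK G A := fun x hx => by
  have : m⁻¹ • x ∈ A := ((MM G A).inv_mem hm x).2 hx
  rw [mul_smul, mul_smul, hk _ this, smul_inv_smul]

theorem fix_conj (g h : G) (x : Ω) : g • x ∈ fixedBy Ω (g * h * g⁻¹) ↔ x ∈ fixedBy Ω h := by
  rw [mem_fixedBy, mem_fixedBy, mul_smul, mul_smul, inv_smul_smul, smul_left_cancel_iff]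

theorem mem_MM_of_conj {g h : G} (e : fixedBy Ω (g * h * g⁻¹) = fixedBy Ω h) :
    g ∈ MM G (fixedBy Ω h) := fun x => by
  rw [← fix_conj g h x, e]

theorem mem_MM_of_comm {g h : G} (e : g * h = h * g) : g ∈ MM G (fixedBy Ω h) :=
  mem_MM_of_conj (by rw [e, mul_inv_cancel_right])

theorem card_fix_conj (g h : G) :
    Nat.card (fixedBy Ω (g * h * g⁻¹)) = Nat.card (fixedBy Ω h) :=
  (Nat.card_congr ((MulAction.toPerm g).subtypeEquiv fun x => (fix_conj g h x).symm)).symm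

theorem exists_pi [Finite Ω] {A : Set Ω} (hA : Nat.card A = 4) {W : Type*} [Group W] (i : W →* G)
    (hW : ∀ w, i w ∈ MM G A) :
    ∃ π : W →* Equiv.Perm (Fin 4), ∀ w, π w = 1 ↔ i w ∈ KK G A := by
  let e : A ≃ Fin 4 := Finite.equivFinOfCardEq hA
  let ρ : W →* Equiv.Perm A := MonoidHom.mk'
    (fun w => (MulAction.toPerm (i w)).subtypePerm (fun x => hW w x))
    (fun a b => by
      ext x
      show i (a * b) • x.1 = i a • i b • x.1
      rw [map_mul, mul_smul])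
  refine ⟨e.permCongrHom.toMonoidHom.comp ρ, fun w => ?_⟩
  rw [MonoidHom.comp_apply, MulEquiv.coe_toMonoidHom, MulEquiv.map_eq_one_iff]
  constructor
  · intro h x hx
    exact congrArg Subtype.val (Equiv.congr_fun h ⟨x, hx⟩)
  · intro h
    ext x
    exact h x.1 x.2

variable [Finite Ω] (hfix : ∀ g : G, g ≠ 1 → Nat.card (fixedBy Ω g) ≤ 4)
include hfix

theorem fx_eq {A : Set Ω} (hA : Nat.card A = 4) {g : G} (h1 : g ≠ 1) (hg : g ∈ KK G A) :
    fixedBy Ω g = A := by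
  have h := hfix g h1
  rw [Nat.card_coe_set_eq] at h hA
  exact (Set.eq_of_subset_of_ncard_le (s := A) (t := fixedBy Ω g) (fun x hx => hg x hx)
    (by omega) (Set.toFinite _)).symm

theorem eq_one_of {A B : Set Ω} (hA : Nat.card A = 4) (hB : Nat.card B = 4) (hAB : A ≠ B) {g : G}
    (h1 : g ∈ KK G A) (h2 : g ∈ KK G B) : g = 1 := by
  by_contra h
  exact hAB ((fx_eq hfix hA h h1).symm.trans (fx_eq hfix hB h h2))

theorem comm_of {A B : Set Ω} (hA : Nat.card A = 4) (hB : Nat.card B = 4) (hAB : A ≠ B) {r u : G}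
    (h1 : r ∈ KK G A) (h1' : r ∈ MM G B) (h2 : u ∈ KK G B) (h2' : u ∈ MM G A) :
    r * u = u * r := by
  have h : r * u * r⁻¹ * u⁻¹ = 1 := by
    refine eq_one_of hfix hA hB hAB ?_ ((KK G B).mul_mem (conj_KK h1' h2) ((KK G B).inv_mem h2))
    have := (KK G A).mul_mem h1 (conj_KK h2' ((KK G A).inv_mem h1))
    simpa only [mul_assoc] using this
  calc r * u = r * u * r⁻¹ * u⁻¹ * (u * r) := by group
    _ = u * r := by rw [h, one_mul]

theorem card_le_four {A B : Set Ω} (hA : Nat.card A = 4) (hB : Nat.card B = 4) (hAB : A ≠ B)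
    {R : Subgroup G} (h1 : R ≤ KK G A) (h2 : R ≤ MM G B) : Nat.card R ≤ 4 := by
  obtain ⟨β, hβ, hβA⟩ : ∃ β ∈ B, β ∉ A := by
    by_contra h
    push Not at h
    rw [Nat.card_coe_set_eq] at hA hB
    exact hAB (Set.eq_of_subset_of_ncard_le h (by omega) (Set.toFinite _)).symm
  rw [← hB]
  refine Nat.card_le_card_of_injective (fun r : R => (⟨r.1 • β, (h2 r.2 β).2 hβ⟩ : B)) ?_
  intro r s h
  have h3 : r.1 • β = s.1 • β := congrArg Subtype.val h
  by_contra hne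
  have h4 : s.1⁻¹ * r.1 ≠ 1 := fun e => hne (Subtype.ext (inv_mul_eq_one.1 e).symm)
  have h5 := fx_eq hfix hA h4 (h1 (R.mul_mem (R.inv_mem s.2) r.2))
  apply hβA
  rw [← h5, mem_fixedBy, mul_smul, h3, inv_smul_smul]

omit hfix [Finite Ω] [MulAction G Ω]

variable [Finite G]

theorem sr_amb (S : Sylow 2 G) (h : SectionalPRankLE 2 4 ↥(S : Subgroup G)) :
    SectionalPRankLE 2 4 G := by
  refine H11.SR.sectional_of_sylow S fun X hX N hN hs => ?_
  have := H26.sr_of_sectional h (X.subgroupOf S) le_top (N.subgroupOf S) (fun x hx => hN hx)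
    (fun x hx => hs _ hx)
  rwa [relIndex_subgroupOf hX] at this

theorem exists_max {H X : Subgroup G} (hX : IsPGroup 2 X) (hH : X ≤ H) :
    ∃ W : Subgroup G, X ≤ W ∧ W ≤ H ∧ IsPGroup 2 W ∧
      ∀ Y : Subgroup G, IsPGroup 2 Y → W ≤ Y → Y ≤ H → Y ≤ W := by
  obtain ⟨W, ⟨h1, h2, h3⟩, hm⟩ := (wellFounded_gt (α := Subgroup G)).has_min
    {W : Subgroup G | X ≤ W ∧ W ≤ H ∧ IsPGroup 2 W} ⟨X, le_rfl, hH, hX⟩
  refine ⟨W, h1, h2, h3, fun Y hY hWY hYH => ?_⟩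
  by_contra hn
  exact hm Y ⟨h1.trans hWY, hYH, hY⟩ (lt_of_le_not_ge hWY hn)

theorem conj_into (T : Sylow 2 G) (K : Subgroup G)
    (hT : (T : Subgroup G) ≤ K) (A : Subgroup G) (hA : IsPGroup 2 A) (hAK : A ≤ K) :
    ∃ h ∈ K, ∀ a ∈ A, h * a * h⁻¹ ∈ (T : Subgroup G) := by
  haveI : Fact (Nat.Prime 2) := ⟨Nat.prime_two⟩
  have h1 : IsPGroup 2 (A.subgroupOf K) := hA.comap_subtype
  obtain ⟨Q, hQ⟩ := h1.exists_le_sylow
  obtain ⟨k, hk⟩ := MulAction.exists_smul_eq K Q (T.subtype hT)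
  refine ⟨k, k.2, fun a ha => ?_⟩
  have h2 : (⟨a, hAK ha⟩ : K) ∈ (Q : Subgroup K) := hQ (by simpa [mem_subgroupOf] using ha)
  have h3 : k * ⟨a, hAK ha⟩ * k⁻¹ ∈ ((k • Q : Sylow 2 K) : Subgroup K) := by
    rw [Sylow.coe_subgroup_smul]
    exact ⟨_, h2, rfl⟩
  rw [hk, Sylow.coe_subtype, mem_subgroupOf] at h3
  simpa using h3

theorem syl_in (T : Sylow 2 G) (K : Subgroup G)
    (hT : (T : Subgroup G) ≤ K) (A : Subgroup G) (hA : IsPGroup 2 A) (hAK : A ≤ K) :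
    ∃ S : Sylow 2 G, A ≤ S ∧ (S : Subgroup G) ≤ K := by
  obtain ⟨h, hh, hA'⟩ := conj_into T K hT A hA hAK
  refine ⟨h⁻¹ • T, fun a ha => ?_, fun s hs => ?_⟩
  · rw [Sylow.coe_subgroup_smul]
    exact ⟨_, hA' a ha, by simp [mul_assoc]⟩
  · rw [Sylow.coe_subgroup_smul] at hs
    obtain ⟨t, ht, rfl⟩ := hs
    exact K.mul_mem (K.mul_mem (K.inv_mem hh) (hT ht)) (K.inv_mem (K.inv_mem hh))

theorem pg_invol {d : G} (hd : d * d = 1) : IsPGroup 2 (zpowers d) := by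
  rintro ⟨x, n, rfl⟩
  refine ⟨1, Subtype.ext ?_⟩
  show (d ^ n) ^ 2 ^ 1 = 1
  rw [pow_one, ← zpow_natCast, ← zpow_mul, mul_comm, zpow_mul, zpow_natCast, pow_two, hd, one_zpow]

theorem ord2 {d : G} (hd : d * d = 1) (h1 : d ≠ 1) : orderOf d = 2 :=
  haveI : Fact (Nat.Prime 2) := ⟨Nat.prime_two⟩
  orderOf_eq_prime (by rw [pow_two, hd]) h1

theorem cls {R : Subgroup G} (hR : IsPGroup 2 R) (h4 : Nat.card R ≤ 4) {d : G} (hd : d ∈ R)
    (h2 : d * d = 1) (h1 : d ≠ 1) :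
    (Nat.card R ≤ 2 ∧ R ≤ zpowers d) ∨ (∃ x ∈ R, x * x = d ∧ R ≤ zpowers x) ∨
      (Nat.card R = 4 ∧ ∀ r ∈ R, r * r = 1) := by
  classical
  haveI : Fact (Nat.Prime 2) := ⟨Nat.prime_two⟩
  have two : ∀ {n : ℕ}, (∃ k, n = 2 ^ k) → n ≤ 4 → n ≤ 2 ∨ n = 4 := by
    rintro n ⟨k, rfl⟩ h
    rcases k with _ | _ | _ | k
    · simp
    · simp
    · simp
    · have : 0 < 2 ^ k := by positivity
      rw [pow_succ, pow_succ, pow_succ] at h; omega
  rcases two hR.exists_card_eq h4 with h | h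
  · refine Or.inl ⟨h, (eq_of_le_of_card_ge (zpowers_le.2 hd) ?_).ge⟩
    rw [Nat.card_zpowers, ord2 h2 h1]; exact h
  by_cases he : ∀ r ∈ R, r * r = 1
  · exact Or.inr (Or.inr ⟨h, he⟩)
  push Not at he
  obtain ⟨x, hx, hx2⟩ := he
  have o4 : orderOf x = 4 := by
    have h5 : orderOf x ∣ 4 := h ▸ R.orderOf_dvd_natCard hx
    have h6 : ¬ orderOf x ∣ 2 := fun e => hx2 (by rw [← pow_two]; exact orderOf_dvd_iff_pow_eq_one.1 e)
    have h7 : orderOf x ≤ 4 := Nat.le_of_dvd (by norm_num) h5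
    interval_cases orderOf x <;> simp_all
  have hle : R ≤ zpowers x := (eq_of_le_of_card_ge (zpowers_le.2 hx) (by
    rw [Nat.card_zpowers, o4, h])).ge
  refine Or.inr (Or.inl ⟨x, hx, ?_, hle⟩)
  have h8 := hle hd
  rw [mem_zpowers_iff_mem_range_orderOf, o4] at h8
  simp only [Finset.mem_image, Finset.mem_range] at h8
  obtain ⟨k, hk, rfl⟩ := h8
  have x4 : x ^ 4 = 1 := o4 ▸ pow_orderOf_eq_one x
  interval_cases k
  · simp at h1
  · simp at h2; exact absurd h2 hx2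
  · rw [pow_two]
  · exfalso; apply hx2
    calc x * x = x ^ 4 * (x * x) := by rw [x4, one_mul]
      _ = x ^ 3 * x ^ 3 := by group
      _ = 1 := h2

theorem cent_inv {S K : Subgroup G} (hS : IsPGroup 2 S) (hn : ∀ s ∈ S, ∀ k ∈ K, s * k * s⁻¹ ∈ K)
    {d : G} (hd : d ∈ S) (hK : d ∈ K) (h1 : d ≠ 1) :
    ∃ z ∈ S, z ∈ K ∧ z ≠ 1 ∧ z * z = 1 ∧ ∀ s ∈ S, s * z = z * s := by
  haveI : Fact (Nat.Prime 2) := ⟨Nat.prime_two⟩
  haveI : (K.subgroupOf S).Normal := ⟨fun n hn' g => hn g g.2 n hn'⟩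
  have h := H3.inf_center_ne_bot hS.isNilpotent (K.subgroupOf S) fun e => h1 (by
    have : (⟨d, hd⟩ : S) ∈ K.subgroupOf S := hK
    rw [e, mem_bot] at this
    exact congrArg Subtype.val this)
  haveI := (nontrivial_iff_ne_bot _).2 h
  have hp : IsPGroup 2 ↥(K.subgroupOf S ⊓ center S) := hS.to_subgroup _
  obtain ⟨k, hk0, hk⟩ := hp.nontrivial_iff_card.1 inferInstance
  obtain ⟨y, hy⟩ := exists_prime_orderOf_dvd_card' (G := ↥(K.subgroupOf S ⊓ center S)) 2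
    (by rw [hk]; exact dvd_pow_self 2 hk0.ne')
  refine ⟨y.1.1, y.1.2, y.2.1, fun e => ?_, ?_, fun s hs => ?_⟩
  · have : y = 1 := Subtype.ext (Subtype.ext e)
    rw [this] at hy; simp at hy
  · have := pow_orderOf_eq_one y
    rw [hy, pow_two] at this
    exact congrArg (fun w => w.1.1) this
  · exact congrArg Subtype.val (mem_center_iff.1 y.2.2 ⟨s, hs⟩)

end Cfsg.Agent.FX
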