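import Cfsg.Agent.FX.Z1
import Cfsg.Agent.FX.A
import Cfsg.Agent.FX.B1
import Cfsg.Agent.FX.B2
import Cfsg.Agent.FX.C
import Cfsg.Agent.FX.P16
import Cfsg.Agent.S1175

/-!
# Fixity four: involutions fixing four points
-/

set_option autoImplicit false

namespace Cfsg.Agent.FX

open Subgroup MulAction

variable {G Ω : Type*} [Group G] [Finite G]

theorem card_sub {S X : Subgroup G} {Y : Subgroup S} (h : ∀ y ∈ Y, (y : G) ∈ X) :
    Nat.card Y ≤ Nat.card X :=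
  Nat.card_le_card_of_injective (fun y : Y => (⟨y.1.1, h _ y.2⟩ : X))
    (fun _ _ e => Subtype.ext (Subtype.ext (congrArg (fun w : X => (w : G)) e)))

variable [MulAction G Ω] [Finite Ω] (hfix : ∀ g : G, g ≠ 1 → Nat.card (fixedBy Ω g) ≤ 4)
  {A B : Set Ω} (hA : Nat.card A = 4) (hB : Nat.card B = 4) (hAB : A ≠ B)
include hfix hA hB hAB

theorem e16 {R U : Subgroup G} (cR : Nat.card R = 4) (cU : Nat.card U = 4)
    (eR : ∀ r ∈ R, r * r = 1) (eU : ∀ u ∈ U, u * u = 1) (h1 : R ≤ KK G A) (h2 : R ≤ MM G B)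
    (h3 : U ≤ KK G B) (h4 : U ≤ MM G A) : SectionalPRankLE 2 4 G := by
  haveI : Fact (Nat.Prime 2) := ⟨Nat.prime_two⟩
  obtain ⟨a, b, c⟩ := p16 hfix R U A B hA hB hAB cR cU eR eU
    (fun r hr u hu => comm_of hfix hA hB hAB (h1 hr) (h2 hr) (h3 hu) (h4 hu))
    (fun r hr h => fx_eq hfix hA h (h1 hr)) (fun r hr h => fx_eq hfix hB h (h3 hr))
  generalize R ⊔ U = E at a b c
  obtain ⟨S, hS⟩ := (IsPGroup.of_card (p := 2) (n := 4) (G := E) b).exists_le_sylow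
  refine sr_amb S ?_
  have b' : Nat.card (E.subgroupOf S) = 16 :=
    (Nat.card_congr (subgroupOfEquivOfLe hS).toEquiv).trans b
  have a' : ∀ x ∈ E.subgroupOf S, x * x = 1 := fun x hx => Subtype.ext (a _ hx)
  have c' : ∀ x ∈ normalizer (E.subgroupOf (S : Subgroup G) : Set ↥(S : Subgroup G)),
      x ∉ E.subgroupOf S → Nat.card ↥(E.subgroupOf S ⊓ centralizer {x}) ≤ 4 := by
    intro x hx hxE
    refine le_trans (card_sub (X := E ⊓ centralizer {(x : G)}) fun y hy => ?_) (c x ?_ hxE)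
    · exact ⟨hy.1, H11.mem_cent1.2 (congrArg Subtype.val (H11.mem_cent1.1 hy.2))⟩
    · exact H11.mem_normalizer_of_forall fun b hb => (mem_normalizer_iff.1 hx ⟨b, hS hb⟩).1 hb
  by_cases hn : (E.subgroupOf (S : Subgroup G)).Normal
  · exact pb1 S.2 _ a' b' fun x => c' x (by rw [normalizer_eq_top]; trivial)
  · exact pb2 S.2 _ hn a' b' c'

theorem half (S0 : Sylow 2 G) (hS0 : (S0 : Subgroup G) ≤ MM G A) {W : Subgroup G}
    (hW : IsPGroup 2 W) (hWA : W ≤ MM G A) (hWB : W ≤ MM G B)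
    (hm : ∀ Y : Subgroup G, IsPGroup 2 Y → W ≤ Y → Y ≤ MM G A → Y ≤ MM G B → Y ≤ W)
    {e : G} (he : e ∈ W) (h2 : e * e = 1) (h1 : e ≠ 1) (hf : fixedBy Ω e = B)
    (h : Nat.card ↥(W ⊓ KK G A) ≤ 2 ∨ ∃ x ∈ W ⊓ KK G B, x * x = e) : SectionalPRankLE 2 4 G := by
  obtain ⟨S, hWS, hS⟩ := syl_in S0 _ hS0 W hW hWA
  obtain ⟨π, hπ⟩ := exists_pi hA (S : Subgroup G).subtype (fun w => hS w.2)
  have eK : e ∈ KK G B := hf ▸ KK_fix e
  have key : ∀ s : ↥(S : Subgroup G), π s = 1 → s.1 * e = e * s.1 → s.1 ∈ W ⊓ KK G A := by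
    intro s h3 h4
    refine ⟨hm ((S : Subgroup G) ⊓ MM G B) (S.2.to_le inf_le_left) (le_inf hWS hWB)
      (inf_le_left.trans hS) inf_le_right ⟨s.2, ?_⟩, (hπ s).1 h3⟩
    exact hf ▸ mem_MM_of_comm h4
  have ne : π ⟨e, hWS he⟩ ≠ 1 := fun h3 => h1 (eq_one_of hfix hA hB hAB ((hπ _).1 h3) eK)
  have cs : Nat.card ↥(π.ker ⊓ centralizer {⟨e, hWS he⟩}) ≤ Nat.card ↥(W ⊓ KK G A) :=
    card_sub fun y hy => key y hy.1 (congrArg Subtype.val (H11.mem_cent1.1 hy.2))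
  refine sr_amb S ?_
  rcases h with h | ⟨x, hx, rfl⟩
  · exact pa2 S.2 π ⟨e, hWS he⟩ (Subtype.ext h2) ne (cs.trans h)
  · refine pa4 S.2 π ⟨x, hWS hx.1⟩ ne (Subtype.ext ?_)
      (cs.trans (card_le_four hfix hA hB hAB inf_le_right (inf_le_left.trans hWB))) fun r hr h3 => ?_
    · show x ^ 4 = 1
      rw [← h2]; simp only [pow_succ, pow_zero, one_mul, mul_assoc]
    · have h4 := key r hr (congrArg Subtype.val h3)
      exact Subtype.ext (comm_of hfix hA hB hAB h4.2 (hWB h4.1) hx.2 (hWA hx.1))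

theorem caseII (S0 : Sylow 2 G) (hS0 : (S0 : Subgroup G) ≤ MM G A) (S1 : Sylow 2 G)
    (hS1 : (S1 : Subgroup G) ≤ MM G B) {d e : G} (d2 : d * d = 1) (d1 : d ≠ 1)
    (fd : fixedBy Ω d = A) (e2 : e * e = 1) (e1 : e ≠ 1) (fe : fixedBy Ω e = B)
    (hc : d * e = e * d) : SectionalPRankLE 2 4 G := by
  haveI : Fact (Nat.Prime 2) := ⟨Nat.prime_two⟩
  have dA : d ∈ MM G A := fd ▸ mem_MM_of_comm rfl
  have dB : d ∈ MM G B := fe ▸ mem_MM_of_comm hc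
  have eA : e ∈ MM G A := fd ▸ mem_MM_of_comm hc.symm
  have eB : e ∈ MM G B := fe ▸ mem_MM_of_comm rfl
  have hX : IsPGroup 2 ↥(zpowers d ⊔ zpowers e) :=
    (pg_invol d2).to_sup_of_normal_right' (pg_invol e2) (zpowers_le.2
      (H11.mem_normalizer_of_forall fun b hb => by
        obtain ⟨n, rfl⟩ := hb
        have : d * e ^ n = e ^ n * d := (Commute.zpow_right hc n)
        show d * e ^ n * d⁻¹ ∈ _
        rw [this, mul_inv_cancel_right]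
        exact ⟨n, rfl⟩))
  obtain ⟨W, h1, h2, h3, h4⟩ := exists_max (H := MM G A ⊓ MM G B) hX
    (sup_le (zpowers_le.2 ⟨dA, dB⟩) (zpowers_le.2 ⟨eA, eB⟩))
  have dW : d ∈ W := h1 (mem_sup_left (mem_zpowers d))
  have eW : e ∈ W := h1 (mem_sup_right (mem_zpowers e))
  have hWA : W ≤ MM G A := h2.trans inf_le_left
  have hWB : W ≤ MM G B := h2.trans inf_le_right
  have H1 := half hfix hA hB hAB S0 hS0 h3 hWA hWB (fun Y a b c c' => h4 Y a b (le_inf c c'))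
    eW e2 e1 fe
  have H2 := half hfix hB hA hAB.symm S1 hS1 h3 hWB hWA (fun Y a b c c' => h4 Y a b (le_inf c' c))
    dW d2 d1 fd
  rcases cls (R := W ⊓ KK G A) (h3.to_le inf_le_left)
    (card_le_four hfix hA hB hAB inf_le_right (inf_le_left.trans hWB)) ⟨dW, fd ▸ KK_fix d⟩ d2 d1
    with ⟨h, -⟩ | ⟨x, hx, h, -⟩ | ⟨cR, eR⟩
  · exact H1 (Or.inl h)
  · exact H2 (Or.inr ⟨x, hx, h⟩)
  rcases cls (R := W ⊓ KK G B) (h3.to_le inf_le_left)
    (card_le_four hfix hB hA hAB.symm inf_le_right (inf_le_left.trans hWA)) ⟨eW, fe ▸ KK_fix e⟩ e2 e1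
    with ⟨h, -⟩ | ⟨x, hx, h, -⟩ | ⟨cU, eU⟩
  · exact H2 (Or.inl h)
  · exact H1 (Or.inr ⟨x, hx, h⟩)
  exact e16 hfix hA hB hAB cR cU eR eU inf_le_right (inf_le_left.trans hWB) inf_le_right
    (inf_le_left.trans hWA)

omit hB hAB in
theorem caseI {d : G} (d2 : d * d = 1) (d1 : d ≠ 1) (fd : fixedBy Ω d = A) :
    (∃ S : Sylow 2 G, d ∈ S ∧ (S : Subgroup G) ≤ MM G A) ∨ SectionalPRankLE 2 4 G := by
  haveI : Fact (Nat.Prime 2) := ⟨Nat.prime_two⟩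
  have dA : d ∈ MM G A := fd ▸ mem_MM_of_comm rfl
  obtain ⟨W, h1, hWA, h3, h4⟩ := exists_max (pg_invol d2) (zpowers_le.2 dA)
  have dW : d ∈ W := h1 (mem_zpowers d)
  obtain ⟨S, hS⟩ := h3.exists_le_sylow
  have hSW : ∀ s ∈ (S : Subgroup G), s ∈ MM G A → s ∈ W := fun s a b =>
    h4 ((S : Subgroup G) ⊓ MM G A) (S.2.to_le inf_le_left) (le_inf hS hWA) inf_le_right ⟨a, b⟩
  by_cases hle : (S : Subgroup G) ≤ MM G A
  · exact Or.inl ⟨S, hS dW, hle⟩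
  right
  obtain ⟨g, hg, hgW, hgn, -⟩ := H11.exists_mem_normalizer_pow_mem S.2
    (lt_of_le_of_ne hS fun e => hle (e ▸ hWA))
  have gA : g ∉ MM G A := fun h => hgW (hSW g hg h)
  set B := fixedBy Ω (g * d * g⁻¹) with hBd
  have hB : Nat.card B = 4 := by rw [hBd, card_fix_conj, fd, hA]
  have hAB : A ≠ B := fun e => gA (fd ▸ mem_MM_of_conj (by rw [fd, e]))
  have mB : ∀ x, x ∈ B ↔ g⁻¹ • x ∈ A := fun x => by
    rw [← fd, ← fix_conj g d, smul_inv_smul]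
  have cW : ∀ w ∈ W, g * w * g⁻¹ ∈ W := fun w hw => (mem_normalizer_iff.1 hgn w).1 hw
  have cW' : ∀ w ∈ W, g⁻¹ * w * g ∈ W := fun w hw =>
    (mem_normalizer_iff.1 hgn _).2 (by simpa [mul_assoc] using hw)
  have hWB : W ≤ MM G B := fun w hw x => by
    rw [mB, mB, ← hWA (cW' w hw) (g⁻¹ • x), mul_smul, mul_smul, smul_inv_smul]
  have dR : d ∈ W ⊓ KK G A := ⟨dW, fd ▸ KK_fix d⟩
  obtain ⟨π, hπ⟩ := exists_pi hA ((S : Subgroup G).subtype.comp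
    (centralizer ({⟨d, hS dW⟩} : Set ↥(S : Subgroup G))).subtype)
    (fun w => fd ▸ mem_MM_of_comm (congrArg Subtype.val (H11.mem_cent1.1 w.2)))
  have hk : ∀ x, ∀ hx : x ∈ W ⊓ KK G A, W ⊓ KK G A ≤ zpowers x → ∀ r, π r = 1 ↔
      (r : ↥(S : Subgroup G)) ∈ zpowers (⟨x, hS hx.1⟩ : ↥(S : Subgroup G)) := by
    intro x hx hle r
    rw [hπ]
    constructor
    · intro h
      obtain ⟨n, hn⟩ := hle ⟨hSW _ r.1.2
        (fd ▸ mem_MM_of_comm (congrArg Subtype.val (H11.mem_cent1.1 r.2))), h⟩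
      exact ⟨n, Subtype.ext (by simpa using hn)⟩
    · rintro ⟨n, hn⟩
      have : (r.1.1 : G) = x ^ n := by rw [← hn]; simp
      show r.1.1 ∈ _
      rw [this]
      exact (KK G A).zpow_mem hx.2 n
  have o2 : orderOf (⟨d, hS dW⟩ : ↥(S : Subgroup G)) = 2 :=
    ord2 (Subtype.ext d2) fun e => d1 (congrArg Subtype.val e)
  rcases cls (R := W ⊓ KK G A) (h3.to_le inf_le_left)
    (card_le_four hfix hA hB hAB inf_le_right (inf_le_left.trans hWB)) dR d2 d1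
    with ⟨-, h⟩ | ⟨x, hx, h, h'⟩ | ⟨cR, eR⟩
  · exact sr_amb S (pc S.2 _ _ o2 (Or.inl rfl) π (hk d dR h))
  · refine sr_amb S (pc S.2 _ _ o2 (Or.inr ⟨Subtype.ext h, fun e => gA ?_⟩) π (hk x hx h'))
    have : (⟨g, hg⟩ : ↥(S : Subgroup G)) ∈ centralizer {⟨d, hS dW⟩} := by rw [e]; trivial
    exact fd ▸ mem_MM_of_comm (congrArg Subtype.val (H11.mem_cent1.1 this))
  refine e16 hfix hA hB hAB (U := (W ⊓ KK G A).map (MulAut.conj g).toMonoidHom) cR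
    ((H11.card_map_conj _ g).trans cR) eR ?_ inf_le_right (inf_le_left.trans hWB) ?_ ?_
  · rintro _ ⟨r, hr, rfl⟩
    rw [← map_mul, eR r hr, map_one]
  · rintro _ ⟨r, hr, rfl⟩ x hx
    show (g * r * g⁻¹) • x = x
    rw [mul_smul, mul_smul, hr.2 _ ((mB x).1 hx), smul_inv_smul]
  · rintro _ ⟨r, hr, rfl⟩
    exact hWA (cW r hr.1)

omit hA hB hAB in
theorem m2b [IsSimpleGroup G] [FaithfulSMul G Ω] (htrans : IsPretransitive G Ω) {d : G}
    (hd : orderOf d = 2) (h4 : Nat.card (fixedBy Ω d) = 4) :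
    (∃ H : Subgroup G, IsStronglyEmbedded H) ∨ SectionalPRankLE 2 4 G := by
  by_cases hs : SectionalPRankLE 2 4 G
  · exact Or.inr hs
  left
  have uq : ∀ a b : G, a * a = 1 → a ≠ 1 → Nat.card (fixedBy Ω a) = 4 → b * b = 1 → b ≠ 1 →
      Nat.card (fixedBy Ω b) = 4 → a * b = b * a → fixedBy Ω a = fixedBy Ω b := by
    intro a b a2 a1 a4 b2 b1 b4 hc
    by_contra hne
    obtain ⟨S0, -, h0⟩ := (caseI hfix a4 a2 a1 rfl).resolve_right hs
    obtain ⟨S1, -, h1⟩ := (caseI hfix b4 b2 b1 rfl).resolve_right hs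
    exact hs (caseII hfix a4 b4 hne S0 h0 S1 h1 a2 a1 rfl b2 b1 rfl hc)
  have d2 : d * d = 1 := by rw [← pow_two, ← hd, pow_orderOf_eq_one]
  have d1 : d ≠ 1 := fun e => by rw [e] at hd; simp at hd
  obtain ⟨S, hdS, hS⟩ := (caseI hfix h4 d2 d1 rfl).resolve_right hs
  obtain ⟨z, zS, zK, z1, z2, zc⟩ := cent_inv (K := KK G (fixedBy Ω d)) S.2
    (fun s hs k hk => conj_KK (hS hs) hk) hdS (KK_fix d) d1
  have fz := fx_eq hfix h4 z1 zK
  rw [← fz] at hS h4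
  have cj : ∀ g : G, g * z * g⁻¹ * (g * z * g⁻¹) = 1 ∧ g * z * g⁻¹ ≠ 1 := fun g =>
    ⟨by rw [show g * z * g⁻¹ * (g * z * g⁻¹) = g * (z * z) * g⁻¹ by group, z2]; simp,
      fun e => z1 (by simpa using e)⟩
  have uz : ∀ g : G, z * (g * z * g⁻¹) = g * z * g⁻¹ * z →
      fixedBy Ω (g * z * g⁻¹) = fixedBy Ω z := fun g hc =>
    (uq _ _ z2 z1 h4 (cj g).1 (cj g).2 ((card_fix_conj g z).trans h4) hc).symm
  refine S1175.result (MM G (fixedBy Ω z)) (fun e => z1 ?_) z (ord2 z2 z1) (mem_MM_of_comm rfl)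
    ⟨S, zS, zc⟩ (fun g hg => ?_) (fun g hc hne c hcc => ?_)
  · obtain ⟨⟨a, ha⟩⟩ : Nonempty (fixedBy Ω z) := (Nat.card_pos_iff.1 (by omega)).1
    refine FaithfulSMul.eq_of_smul_eq_smul (α := Ω) fun x => ?_
    obtain ⟨g, rfl⟩ := htrans.exists_smul_eq a x
    have : g ∈ MM G (fixedBy Ω z) := by rw [e]; trivial
    rw [one_smul]
    exact (this a).2 ha
  · obtain ⟨h, hh, hc⟩ := conj_into S _ hS _ (pg_invol (cj g).1) (zpowers_le.2 hg)
    have h5 := hc _ (mem_zpowers _)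
    rw [show h * (g * z * g⁻¹) * h⁻¹ = h * g * z * (h * g)⁻¹ by group] at h5
    have h6 := mem_MM_of_conj (uz _ (zc _ h5).symm)
    simpa using (MM G _).mul_mem ((MM G _).inv_mem hh) h6
  · have h5 : z * (g * z * g⁻¹) ∈ KK G (fixedBy Ω z) :=
      (KK G _).mul_mem (KK_fix z) (uz g hc ▸ KK_fix _)
    have h6 : z * (g * z * g⁻¹) ≠ 1 := fun e => hne (by
      rw [eq_inv_of_mul_eq_one_right e, inv_eq_of_mul_eq_one_right z2])
    exact fx_eq hfix h4 h6 h5 ▸ mem_MM_of_comm (H11.mem_cent1.1 hcc)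

end Cfsg.Agent.FX
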